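import Cfsg.Agent.AutLf48.Defs
import Cfsg.Agent.Fi23Recog54.Loc
import Cfsg.Agent.Fi23Recog54.Hom
import Cfsg.Agent.Fi24Type67.Main
import Cfsg.Agent.ThreeTransp.M24Chart58

/-!
Involutions whose centralizer is the direct product with Fi23: the chart of the commuting
conjugates, the chart of the presented Fi24 at `l`, and the map induced by an element interchanging
two commuting conjugates, which is never inner on their common members.
-/

set_option autoImplicit false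
set_option maxRecDepth 8000

namespace CfsgLib.AutLf48

open Cfsg CfsgLib.ThreeTransp CfsgLib.ThreeTransp.Cover58 CfsgLib.CosetEnum
open CfsgLib.Fi23Recog54 (Loc Nd Od)
open CfsgLib.Fi23Type67 (D23)

universe w

theorem ttg23 : IsThreeTranspositionGroup D23 := ttg_of_class CfsgLib.Fi23Type67.ttc23

theorem single23 : SingleClass D23 := CfsgLib.Fi23Type67.primitive23.1

theorem lineSet23 {a : Spor.Fi23} (ha : a ∈ D23) : LineSet D23 (nbr D23 a) :=
  letI := Fi23.finite_fi23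
  m23_lineSet_nbr ttg23 CfsgLib.Fi23Type67.primitive23 CfsgLib.Fi23Type67.type23 ha

/-- Two maps of the neighbours of a member of Fi23 that are not inner compose to an inner one. -/
theorem inner_comp23 {a : Spor.Fi23} (ha : a ∈ D23) {f₁ f₂ : Spor.Fi23 → Spor.Fi23}
    (m₁ : GMap (nbr D23 a) (nbr D23 a) f₁) (m₂ : GMap (nbr D23 a) (nbr D23 a) f₂)
    (n₁ : ¬ IsInnerMap (nbr D23 a) f₁) (n₂ : ¬ IsInnerMap (nbr D23 a) f₂) :
    IsInnerMap (nbr D23 a) fun z => f₁ (f₂ z) := by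
  have := Fi23.finite_fi23
  obtain ⟨hnc, hT, h22⟩ := m23_bar ttg23 CfsgLib.Fi23Type67.primitive23
    CfsgLib.Fi23Type67.type23 ha
  obtain ⟨ι, hι, -⟩ := gmap_barPt ttg23 hnc (Set.Subset.refl (nbr D23 a))
  rw [barOf_nbr_univ] at hι
  exact inner_comp (lineSet23 ha) (m22_lineSet hT h22) h22.1 (m22_out_two hT h22) hι m₁ m₂ n₁ n₂

/-- An odd number of neighbours of a member of Fi23 has product one. -/
theorem odd_one {a : Spor.Fi23} (ha : a ∈ D23) :
    ∃ l : List Spor.Fi23, Odd l.length ∧ (∀ m ∈ l, m ∈ nbr D23 a) ∧ l.prod = 1 := by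
  have h := Fi24.checksOK
  obtain ⟨g, rfl⟩ := CfsgLib.Fi23Type67.mem_D23.1 ha
  refine ⟨Fi24.lW.map fun x => g * Fi23.g10 x * g⁻¹, ?_, ?_, ?_⟩
  · rw [List.length_map]
    exact Nat.odd_iff.2 (by decide +kernel)
  · intro m hm
    obtain ⟨x, hx, rfl⟩ := List.mem_map.1 hm
    exact nbr_conj ttg23 g (CfsgLib.Fi23Type67.mem_nbr_z0
      ((show ∀ x ∈ Fi24.lW, x < 9 by decide +kernel) x hx))
  · have h1 : gword Fi23.g10 Fi24.lW = 1 := by
      refine Fi24.psi_inj h ?_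
      rw [Fi24.psi_gword (show ∀ x ∈ Fi24.lW, x < 10 by decide +kernel), map_one,
        ← CfsgLib.Fi24Type67.l_eq_lW,
        show Fi24.lW.length = 2 * 31 + 1 by decide +kernel, pow_succ, pow_mul, pow_two,
        Fi24.g12_sq, one_pow, one_mul, Fi24.g12_sq]
    have key : ∀ w : List ℕ, (w.map fun x => g * Fi23.g10 x * g⁻¹).prod =
        g * gword Fi23.g10 w * g⁻¹ := by
      intro w
      induction w with
      | nil => simp [gword_nil]
      | cons x w ih => rw [List.map_cons, List.prod_cons, ih, gword_cons]; group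
    rw [key, h1, mul_one, mul_inv_cancel]

section chart

variable {G : Type w} [Group G] {d : G}

theorem conjugate_parity (par : G →* ℤˣ) {z : G} (hz : IsConj d z) : par z = par d := by
  obtain ⟨g, rfl⟩ := isConj_iff.1 hz
  rw [map_mul, map_mul, map_inv, mul_comm (par g), mul_inv_cancel_right]

/-- The map induced on the class of Fi23 by an interchanging element. -/
noncomputable def swapMap (L : Loc D23 d) (σ : G) (m : Spor.Fi23) : Spor.Fi23 :=
  letI := Classical.propDecidable (m ∈ D23)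
  if h : m ∈ D23 then L.φ (σ * (L.φ_onto h).choose * σ⁻¹) else 1

theorem swapMap_eq (L : Loc D23 d) (σ : G) {z : G} (hz : z ∈ Nd d) :
    swapMap L σ (L.φ z) = L.φ (σ * z * σ⁻¹) := by
  rw [swapMap, dif_pos (L.φ_mem hz),
    L.φ_inj (L.φ_onto (L.φ_mem hz)).choose_spec.1 hz (L.φ_onto (L.φ_mem hz)).choose_spec.2]

variable (L : Loc D23 d) {a σ : G} (ha : a ∈ Nd d) (hσd : σ * d * σ⁻¹ = a)
  (hσa : σ * a * σ⁻¹ = d)

include L hσd hσa in
theorem od_conj {z : G} (hz : z ∈ Od d a) : σ * z * σ⁻¹ ∈ Od d a := by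
  have h1 := CfsgLib.Fi23Recog54.nbr_conjugates σ hz.1
  have h2 := CfsgLib.Fi23Recog54.nbr_conjugates σ hz.2
  rw [hσd] at h1
  rw [hσa] at h2
  exact ⟨h2, h1⟩

include ha hσd hσa in
theorem swapMap_gmap : GMap (nbr D23 (L.φ a)) (nbr D23 (L.φ a)) (swapMap L σ) := by
  have hr := L.gmap.restrict (nbr_subset _ d) (Set.Subset.refl D23) ha (D := conjugatesOf d)
  rw [Set.inter_eq_right.2 (nbr_subset D23 (L.φ a))] at hr
  obtain ⟨κ, hκ, hκl, hκr⟩ := hr.exists_inv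
  have hm : GMap (Od d a) (Od d a) fun x => σ * x * σ⁻¹ :=
    gmap_conj σ (fun z hz => od_conj L hσd hσa hz) (fun z hz => by
      have h1 := CfsgLib.Fi23Recog54.nbr_conjugates σ⁻¹ hz.1
      have h2 := CfsgLib.Fi23Recog54.nbr_conjugates σ⁻¹ hz.2
      rw [show σ⁻¹ * d * σ⁻¹⁻¹ = a by rw [← hσa]; group] at h1
      rw [show σ⁻¹ * a * σ⁻¹⁻¹ = d by rw [← hσd]; group] at h2
      rw [inv_inv] at h1 h2
      exact ⟨h2, h1⟩)
  refine ((hκ.comp hm).comp hr).of_eqOn fun m hm' => ?_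
  conv_lhs => rw [← hκr m hm']
  exact swapMap_eq L σ (hκ.mem m hm').1

include ha hσd hσa in
/-- An interchanging element is not inner on the common members, as an odd number of them has
product `d`. -/
theorem swap_not_inner (par : G →* ℤˣ) (hpar : par d = -1) :
    ¬ IsInnerMap (nbr D23 (L.φ a)) (swapMap L σ) := by
  rintro ⟨k, hk, hkz⟩
  obtain ⟨c, hc, rfl⟩ := L.exists_φ k
  have hca : c * a * c⁻¹ = a := L.φ_inj (CfsgLib.Fi23Recog54.nd_conj hc ha) ha (by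
    rw [L.φ_conj hc ha.2.2.symm, (commute_of_mem_closure_nbr hk).eq, mul_inv_cancel_right])
  have hsd : c⁻¹ * σ * d * (c⁻¹ * σ)⁻¹ = a := by
    rw [show c⁻¹ * σ * d * (c⁻¹ * σ)⁻¹ = c⁻¹ * (σ * d * σ⁻¹) * c by group, hσd]
    calc c⁻¹ * a * c = c⁻¹ * (c * a * c⁻¹) * c := by rw [hca]
      _ = a := by group
  have hfix : ∀ z ∈ Od d a, Commute (c⁻¹ * σ) z := by
    intro z hz
    have hzn : L.φ z ∈ nbr D23 (L.φ a) := (L.φ_nbr ha hz.1).2 hz.2
    have e : σ * z * σ⁻¹ = c * z * c⁻¹ :=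
      L.φ_inj (od_conj L hσd hσa hz).1 (CfsgLib.Fi23Recog54.nd_conj hc hz.1) (by
        rw [← swapMap_eq L σ hz.1, hkz _ hzn, L.φ_conj hc hz.1.2.2.symm])
    refine mul_inv_eq_iff_eq_mul.1 ?_
    calc c⁻¹ * σ * z * (c⁻¹ * σ)⁻¹ = c⁻¹ * (σ * z * σ⁻¹) * c := by group
      _ = z := by rw [e]; group
  have key : ∀ l : List Spor.Fi23, (∀ m ∈ l, m ∈ nbr D23 (L.φ a)) → ∃ p, Commute p d ∧
      L.φ p = l.prod ∧ par p = (-1) ^ l.length ∧ Commute (c⁻¹ * σ) p := by
    intro l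
    induction l with
    | nil =>
      exact fun _ => ⟨1, Commute.one_left d, (L.φ_eq_one (Commute.one_left d)).2 (Or.inl rfl),
        map_one par, Commute.one_right _⟩
    | cons m l ih =>
      intro hm
      obtain ⟨p, hp1, hp2, hp3, hp4⟩ := ih fun x hx => hm x (List.mem_cons_of_mem _ hx)
      obtain ⟨hmD, hmne, hmc⟩ := hm m List.mem_cons_self
      obtain ⟨z, hz, rfl⟩ := L.φ_onto hmD
      have hzO : z ∈ Od d a := ⟨hz, (L.φ_nbr ha hz).1 ⟨hmD, hmne, hmc⟩⟩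
      refine ⟨z * p, hz.2.2.symm.mul_left hp1, ?_, ?_, (hfix z hzO).mul_right hp4⟩
      · rw [L.φ_mul hz.2.2.symm hp1, hp2, List.prod_cons]
      · rw [map_mul, hp3, conjugate_parity par hz.1, hpar, List.length_cons, pow_succ']
  obtain ⟨l, hodd, hl, hprod⟩ := odd_one (L.φ_mem ha)
  obtain ⟨p, hp1, hp2, hp3, hp4⟩ := key l hl
  rw [hodd.neg_one_pow] at hp3
  rcases (L.φ_eq_one hp1).1 (hp2.trans hprod) with rfl | rfl
  · rw [map_one] at hp3
    exact absurd hp3 (by decide)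
  · rw [hp4.eq, mul_inv_cancel_right] at hsd
    exact ha.2.1 hsd.symm

include L in
/-- Two members commuting with `d` that do not commute generate a symmetric group. -/
theorem nd_pow {u v : G} (hu : u ∈ Nd d) (hv : v ∈ Nd d) (hn : ¬ Commute u v) :
    (u * v) ^ 3 = 1 := by
  have huc := hu.2.2.symm
  have hvc := hv.2.2.symm
  have hu2 := CfsgLib.Fi23Recog54.conjugate_sq L.sq hu.1
  have hv2 := CfsgLib.Fi23Recog54.conjugate_sq L.sq hv.1
  rw [CfsgLib.Fi23Recog54.braid_iff hu2 hv2]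
  have hn' : ¬ Commute (L.φ u) (L.φ v) := fun h => hn ((L.φ_commute hu hv).1 h)
  have e : L.φ u * L.φ v * L.φ u = L.φ v * L.φ u * L.φ v :=
    (CfsgLib.Fi23Recog54.braid_iff (tt_mul_self ttg23.1 (L.φ_mem hu))
      (tt_mul_self ttg23.1 (L.φ_mem hv))).1
      ((ttg23.1.2 _ (L.φ_mem hu) _ (L.φ_mem hv)).resolve_left fun h2 => hn'
        ((CfsgLib.Fi23Recog54.commute_iff_sq (tt_mul_self ttg23.1 (L.φ_mem hu))
          (tt_mul_self ttg23.1 (L.φ_mem hv))).2 h2))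
  have h1 := L.φ_inj (CfsgLib.Fi23Recog54.nd_conj huc hv) (CfsgLib.Fi23Recog54.nd_conj hvc hu) (by
    rw [L.φ_conj huc hvc, L.φ_conj hvc huc, tt_inv ttg23.1 (L.φ_mem hu),
      tt_inv ttg23.1 (L.φ_mem hv), e])
  rwa [CfsgLib.Fi23Recog54.conjugate_inv L.sq hu.1,
    CfsgLib.Fi23Recog54.conjugate_inv L.sq hv.1] at h1

include L in
/-- The members commuting with a conjugate, in the chart. -/
theorem exists_chart {b : G} (hb : IsConj d b) :
    ∃ F : G → Spor.Fi23, GMap (nbr (conjugatesOf d) b) D23 F ∧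
      (∀ x ∈ nbr (conjugatesOf d) b, ∀ y ∈ nbr (conjugatesOf d) b,
        F (x * y * x⁻¹) = F x * F y * (F x)⁻¹) ∧
      ∀ x ∈ nbr (conjugatesOf d) b, ∀ y ∈ nbr (conjugatesOf d) b, ¬ Commute x y →
        (x * y) ^ 3 = 1 := by
  obtain ⟨g, hg⟩ := isConj_iff.1 hb
  have h0 : g⁻¹ * b * g⁻¹⁻¹ = d := by rw [inv_inv, ← hg]; group
  have hm : ∀ x ∈ nbr (conjugatesOf d) b, g⁻¹ * x * g⁻¹⁻¹ ∈ Nd d := fun x hx => by
    have h := CfsgLib.Fi23Recog54.nbr_conjugates (d := d) g⁻¹ hx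
    rwa [h0] at h
  have hgm : GMap (nbr (conjugatesOf d) b) (Nd d) (fun x => g⁻¹ * x * g⁻¹⁻¹) :=
    gmap_conj g⁻¹ hm fun z hz => by
      have h := CfsgLib.Fi23Recog54.nbr_conjugates (d := d) g hz
      rw [hg] at h
      rwa [inv_inv]
  refine ⟨fun x => L.φ (g⁻¹ * x * g⁻¹⁻¹), hgm.comp L.gmap, fun x hx y hy => ?_,
    fun x hx y hy hn => ?_⟩
  · show L.φ (g⁻¹ * (x * y * x⁻¹) * g⁻¹⁻¹) = _
    rw [← L.φ_conj (hm x hx).2.2.symm (hm y hy).2.2.symm]
    congr 1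
    group
  · have h := nd_pow L (hm x hx) (hm y hy) fun hc => hn (commute_conj_iff'.1 hc)
    rwa [conj_mul, conj_pow, conj_eq_one_iff] at h

include L in
/-- A trace on the common members determines the member up to conjugation by `d`. -/
theorem eq_or_dconj {b i J P : G} (hb : b ∈ Nd d) (hi : i ∈ Od d b)
    (hJ : J ∈ nbr (conjugatesOf d) b) (hJi : J ∈ nbr (conjugatesOf d) i) (hdJ : ¬ Commute d J)
    (hP : P ∈ nbr (conjugatesOf d) b) (hPi : P ∈ nbr (conjugatesOf d) i) (hdP : ¬ Commute d P)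
    (htr : ∀ z ∈ Od d b, z ∈ nbr (conjugatesOf d) i → Commute z P → Commute z J) :
    J = P ∨ J = d * P * d⁻¹ := by
  obtain ⟨F, hF, hFc, -⟩ := exists_chart L hb.1
  have hd : d ∈ nbr (conjugatesOf d) b := ⟨mem_conjugatesOf_self, hb.2.1.symm, hb.2.2.symm⟩
  have hdi : d ∈ nbr (conjugatesOf d) i := ⟨mem_conjugatesOf_self, hi.1.2.1.symm, hi.1.2.2.symm⟩
  have hFi : F i ∈ D23 := hF.mem i hi.2
  have hr := hF.restrict (nbr_subset (conjugatesOf d) b) (Set.Subset.refl D23) hi.2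
    (D := conjugatesOf d)
  rw [Set.inter_eq_right.2 (nbr_subset D23 (F i))] at hr
  have mW : ∀ x ∈ nbr (conjugatesOf d) b, x ∈ nbr (conjugatesOf d) i → F x ∈ nbr D23 (F i) :=
    fun x hx hxi => hr.mem x ⟨hx, hxi⟩
  have hPd : d * P * d⁻¹ ∈ nbr (conjugatesOf d) b := by
    have h := CfsgLib.Fi23Recog54.nbr_conjugates d hP
    rwa [show d * b * d⁻¹ = b by rw [hb.2.2.eq, mul_inv_cancel_right]] at h
  rcases (lineSet23 hFi).line _ (mW d hd hdi) _ (mW P hP hPi)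
      (fun h => hdP ((hF.comm d hd P hP).1 h)) _ (mW J hJ hJi) (fun w hw hwd hwP => by
      obtain ⟨z, hz, rfl⟩ := hr.surj w hw
      have hzd := (hF.nbr_iff (nbr_subset _ b) (Set.Subset.refl D23) hd hz.1).1 hwd
      have hzP := (hF.nbr_iff (nbr_subset _ b) (Set.Subset.refl D23) hP hz.1).1 hwP
      refine (hF.nbr_iff (D := conjugatesOf d) (nbr_subset _ b) (Set.Subset.refl D23) hJ hz.1).2
        ⟨hz.1.1, fun e => hdJ (e ▸ hzd.2.2), ?_⟩
      exact (htr z ⟨hzd, hz.1⟩ hz.2 hzP.2.2.symm).symm) with e | e | e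
  · exact absurd (hF.inj hJ hd e) fun h => hdJ (h ▸ Commute.refl d)
  · exact Or.inl (hF.inj hJ hP e)
  · refine Or.inr (hF.inj hJ hPd ?_)
    rw [e, hFc d hd P hP, tt_inv ttg23.1 (hF.mem d hd)]

end chart

end CfsgLib.AutLf48
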