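import Cfsg.Agent.AutLf48.Core
import Cfsg.Agent.AutLf85.Fi22Data
import Cfsg.Agent.Balance.ExtendedLayer
import Cfsg.Agent.S5402

/-!
The clauses of type M(23) for the even part of the centralizer of the outer involution, from the
centralizer of a member mapping onto Fi22.
-/

set_option autoImplicit false

namespace CfsgLib.AutLf48

open Cfsg

/-- The clauses. -/
theorem clauses_of {X : Type*} [Group X] [Finite X] {G₀ : Subgroup X} {z d t₀ u v : X}
    (C : Core G₀ z d t₀ u v) (K : Subgroup X)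
    (hK : ∀ x, x ∈ K ↔ x ∈ G₀ ∧ Commute x d ∧ Commute x t₀) (hq : Cfsg.IsQuasisimple ↥K)
    (f : ↥K →* Cfsg.Spor.Fi22) (hf : Function.Surjective f)
    (hker : ∀ k, f k = 1 ↔ (k : X) = 1 ∨ (k : X) = t₀) :
    ∃ t : ↥(G₀ ⊓ Subgroup.centralizer ({d} : Set X)), (t : X) = t₀ ∧ orderOf t = 2 ∧ Cfsg.IsQuasisimple ↥(Subgroup.centralizer ({t} : Set ↥(G₀ ⊓ Subgroup.centralizer ({d} : Set X)))) ∧ (∃ (_ : ((Subgroup.zpowers t).subgroupOf (Subgroup.centralizer ({t} : Set ↥(G₀ ⊓ Subgroup.centralizer ({d} : Set X))))).Normal), (∃ E : Set (↥(Subgroup.centralizer ({t} : Set ↥(G₀ ⊓ Subgroup.centralizer ({d} : Set X)))) ⧸ (Subgroup.zpowers t).subgroupOf (Subgroup.centralizer ({t} : Set ↥(G₀ ⊓ Subgroup.centralizer ({d} : Set X))))), Cfsg.IsThreeTranspositionClass E ∧ Cfsg.IsOfTypeM22 _ E) ∧ ∃ d' : ↥(Subgroup.centralizer ({t} : Set ↥(G₀ ⊓ Subgroup.centralizer ({d} : Set X)))) ⧸ (Subgroup.zpowers t).subgroupOf (Subgroup.centralizer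 ({t} : Set ↥(G₀ ⊓ Subgroup.centralizer ({d} : Set X)))), orderOf d' = 2 ∧ Cfsg.IsQuasisimple ↥(Subgroup.centralizer ({d'} : Set _)) ∧ (∃ (K : Type) (_ : Field K) (_ : Fintype K), Fintype.card K = 4 ∧ ∃ _ : ((Subgroup.zpowers d').subgroupOf (Subgroup.centralizer ({d'} : Set _))).Normal, Nonempty (↥(Subgroup.centralizer ({d'} : Set _)) ⧸ (Subgroup.zpowers d').subgroupOf (Subgroup.centralizer ({d'} : Set _)) ≃* Cfsg.PSU 6 K 2)) ∧ ∃ g, g * d' * g⁻¹ ∈ Subgroup.centralizer ({d'} : Set _) ∧ g * d' * g⁻¹ ≠ d') ∧ (∃ g : ↥(G₀ ⊓ Subgroup.centralizer ({d} : Set X)), g * t * g⁻¹ ∈ Subgroup.centralizer ({t} : Set ↥(G₀ ⊓ Subgroup.centralizer ({d} : Set X))) ∧ g * t * g⁻¹ ≠ t) ∧ Cfsg.IsThreeTranspositionClass (conjugatesOf t) ∧ Cfsg.IsOfTypeM23 ↥(G₀ ⊓ Subgroup.centralizer ({d} : Set X)) (conjugatesOf t) := by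
  set Y := G₀ ⊓ Subgroup.centralizer ({d} : Set X) with hY
  obtain ⟨t, rfl⟩ : ∃ t : ↥Y, (t : X) = t₀ := ⟨⟨t₀, C.t_mem⟩, rfl⟩
  have ht1 : (t : X) ≠ 1 := fun e => C.tu.1 <| by
    refine Eq.trans ?_ C.s_t
    simp [e]
  have ho : orderOf t = 2 :=
    orderOf_eq_prime (Subtype.ext (by rw [pow_two, Subgroup.coe_mul, C.t_sq]; rfl))
      fun e => ht1 (congrArg Subtype.val e)
  have hcomm : ∀ x : ↥Y, x ∈ Subgroup.centralizer ({t} : Set ↥Y) ↔ (x : X) ∈ K := fun x => by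
    rw [Subgroup.mem_centralizer_singleton_iff, hK]
    exact ⟨fun h => ⟨x.2.1, Subgroup.mem_centralizer_singleton_iff.1 x.2.2, congrArg Subtype.val h⟩,
      fun h => Subtype.ext h.2.2⟩
  have hle : ∀ k : ↥K, (k : X) ∈ Y := fun k =>
    ⟨((hK _).1 k.2).1, Subgroup.mem_centralizer_singleton_iff.2 ((hK _).1 k.2).2.1⟩
  let eK : ↥(Subgroup.centralizer ({t} : Set ↥Y)) ≃* ↥K :=
    { toFun := fun x => ⟨((x : ↥Y) : X), (hcomm x.1).1 x.2⟩
      invFun := fun k => ⟨⟨k, hle k⟩, (hcomm ⟨k, hle k⟩).2 k.2⟩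
      left_inv := fun _ => rfl
      right_inv := fun _ => rfl
      map_mul' := fun _ _ => rfl }
  have hq' : IsQuasisimple ↥(Subgroup.centralizer ({t} : Set ↥Y)) :=
    CfsgLib.Balance.isQuasisimple_of_mulEquiv eK.symm hq
  set F := f.comp eK.toMonoidHom with hF
  have hker' : (Subgroup.zpowers t).subgroupOf (Subgroup.centralizer ({t} : Set ↥Y)) = F.ker := by
    ext x
    rw [Subgroup.mem_subgroupOf, MonoidHom.mem_ker, hF, MonoidHom.comp_apply, hker]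
    constructor
    · intro hx
      obtain ⟨n, hn⟩ := Subgroup.mem_zpowers_iff.1 hx
      show ((x : ↥Y) : X) = 1 ∨ ((x : ↥Y) : X) = t
      rw [← hn]
      rcases Int.even_or_odd n with ⟨m, hm⟩ | ⟨m, hm⟩ <;> subst hm
      · left
        rw [← two_mul, zpow_mul, show t ^ (2 : ℤ) = 1 by
          rw [zpow_ofNat, ← ho, pow_orderOf_eq_one], one_zpow]
        rfl
      · right
        rw [zpow_add_one, zpow_mul, show t ^ (2 : ℤ) = 1 by
          rw [zpow_ofNat, ← ho, pow_orderOf_eq_one], one_zpow, one_mul]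
    · rintro (h | h)
      · rw [show (x : ↥Y) = 1 from Subtype.ext h]
        exact one_mem _
      · rw [show (x : ↥Y) = t from Subtype.ext h]
        exact Subgroup.mem_zpowers t
  have hn : ((Subgroup.zpowers t).subgroupOf (Subgroup.centralizer ({t} : Set ↥Y))).Normal := by
    rw [hker']
    infer_instance
  have hFs : Function.Surjective F := hf.comp eK.surjective
  obtain ⟨htype, hinv⟩ := CfsgLib.AutLf85.fi22_data
    ((QuotientGroup.quotientMulEquivOfEq hker').trans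
      (QuotientGroup.quotientKerEquivOfSurjective F hFs))
  have hsY : ∀ x : X, x ∈ Y → C.s * x * C.s⁻¹ ∈ G₀ → C.s * x * C.s⁻¹ ∈ Y := fun x hx h =>
    ⟨h, Subgroup.mem_centralizer_singleton_iff.2 ((C.s_d.mul_left
      (Subgroup.mem_centralizer_singleton_iff.1 hx.2)).mul_left C.s_d.inv_left).eq⟩
  have hnwc : ∃ g : ↥Y, g * t * g⁻¹ ∈ Subgroup.centralizer ({t} : Set ↥Y) ∧ g * t * g⁻¹ ≠ t := by
    refine ⟨⟨C.s, C.s_mem.1, Subgroup.mem_centralizer_singleton_iff.2 C.s_d⟩, ?_, ?_⟩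
    · rw [hcomm, hK]
      show C.s * t * C.s⁻¹ ∈ G₀ ∧ _ ∧ _
      refine ⟨mul_mem (mul_mem C.s_mem.1 t.2.1) (inv_mem C.s_mem.1), ?_, ?_⟩
      · exact (C.s_d.mul_left (Subgroup.mem_centralizer_singleton_iff.1 t.2.2)).mul_left C.s_d.inv_left
      · show Commute (C.s * t * C.s⁻¹) t
        rw [C.s_t]
        exact C.tu.2.symm
    · intro h
      refine C.tu.1 ?_
      rw [← C.s_t]
      exact (congrArg Subtype.val h).symm
  exact ⟨t, rfl, ho, hq', ⟨hn, htype, hinv⟩, hnwc,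
    Cfsg.Agent.S5402.result t ho hq' htype hinv hnwc⟩

end CfsgLib.AutLf48
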