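import Cfsg.Agent.AutLf48.Chart

/-!
The chart of the configuration, the chart of the presented Fi24 at `l`, and the member `J` that
corresponds to the twelfth generator.
-/

set_option autoImplicit false
set_option maxRecDepth 8000

namespace CfsgLib.AutLf48

open Cfsg CfsgLib.ThreeTransp CfsgLib.ThreeTransp.Cover58 CfsgLib.CosetEnum
open CfsgLib.Fi23Recog54 (Loc Nd Od nd_conj nbr_conjugates mem_cent54)
open CfsgLib.Fi23Type67 (D23)

universe w

/-! ### The model -/

/-- The map of the centralizer of `l` onto Fi23. -/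
noncomputable def f24 : ↥(Subgroup.centralizer ({Fi24.g12 10} : Set Spor.Fi24)) →* Spor.Fi23 :=
  (CfsgLib.Fi24Type67.proj Fi24.checksOK).comp
    (MulEquiv.subgroupCongr (Fi24.centralizer_l Fi24.checksOK)).toMonoidHom

theorem f24_eq (a : ↥(Subgroup.centralizer ({Fi24.g12 10} : Set Spor.Fi24))) {u : Spor.Fi23}
    (hu : CfsgLib.Fi24Type67.Rel (a : Spor.Fi24) u) : f24 a = u :=
  CfsgLib.Fi24Type67.proj_eq Fi24.checksOK hu

theorem f24_surjective : Function.Surjective f24 :=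
  (CfsgLib.Fi24Type67.proj_surjective Fi24.checksOK).comp (MulEquiv.surjective _)

theorem f24_ker (k : ↥(Subgroup.centralizer ({Fi24.g12 10} : Set Spor.Fi24))) :
    f24 k = 1 ↔ (k : Spor.Fi24) = 1 ∨ (k : Spor.Fi24) = Fi24.g12 10 := by
  constructor
  · intro hk
    have hs : CfsgLib.Fi24Type67.Rel (k : Spor.Fi24) (f24 k) :=
      CfsgLib.Fi24Type67.proj_spec Fi24.checksOK
        (MulEquiv.subgroupCongr (Fi24.centralizer_l Fi24.checksOK) k)
    rw [hk] at hs
    simpa [CfsgLib.Fi24Type67.Rel] using hs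
  · intro hk
    refine f24_eq k ?_
    simpa [CfsgLib.Fi24Type67.Rel] using hk

theorem g12_mem_cent {x : ℕ} (hx : x < 10) :
    Fi24.g12 x ∈ Subgroup.centralizer ({Fi24.g12 10} : Set Spor.Fi24) :=
  mem_cent54.2 (Fi24.commute_l hx)

theorem g12_nd {x : ℕ} (hx : x < 10) : Fi24.g12 x ∈ Nd (Fi24.g12 10) :=
  CfsgLib.Fi24Type67.mem_nbr_word Fi24.checksOK hx

theorem f24_gen {x : ℕ} (hx : x < 10) :
    f24 ⟨Fi24.g12 x, g12_mem_cent hx⟩ = Fi23.g10 x := by
  refine f24_eq _ ?_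
  have h := CfsgLib.Fi24Type67.rel_gword (w := [x]) (by simpa using hx)
  rwa [Fi24.wone, Fi23.gword_one] at h

theorem parity_nd {z : Spor.Fi24} (hz : IsConj (Fi24.g12 10) z) : Fi24.parity z = -1 := by
  rw [conjugate_parity Fi24.parity hz, Fi24.parity_g12 (by omega)]

/-- The chart of the presented Fi24 at `l`. -/
noncomputable def loc24 : Loc D23 (Fi24.g12 10) where
  f := f24
  surj := f24_surjective
  sq := Fi24.g12_sq 10
  ne := fun e => by
    have h := congrArg Fi24.parity e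
    rw [Fi24.parity_g12 (by omega), map_one] at h
    exact absurd h (by decide)
  ker := f24_ker
  mem z hz := CfsgLib.Fi24Type67.nbr_proj Fi24.checksOK hz
    (Fi24.centralizer_l Fi24.checksOK ▸ z.2)
  inj z w hz hw h := by
    have h1 : f24 (z⁻¹ * w) = 1 := by rw [map_mul, map_inv, h, inv_mul_cancel]
    rcases (f24_ker _).1 h1 with e | e
    · exact Subtype.ext (inv_mul_eq_one.1 e)
    · have e' := congrArg Fi24.parity e
      rw [Subgroup.coe_mul, Subgroup.coe_inv, map_mul, map_inv, parity_nd hz.1, parity_nd hw.1,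
        Fi24.parity_g12 (by omega)] at e'
      exact absurd e' (by decide)
  onto m hm := by
    obtain ⟨g, hg⟩ := CfsgLib.Fi23Type67.mem_D23.1 hm
    obtain ⟨k, hk⟩ := CfsgLib.Fi23Type67.mem_D23.1
      (CfsgLib.Fi23Type67.g10_mem_D (x := 0) (by omega))
    obtain ⟨a, ha⟩ := f24_surjective (g * k⁻¹)
    refine ⟨a * ⟨Fi24.g12 0, g12_mem_cent (x := 0) (by omega)⟩ * a⁻¹,
      nd_conj (mem_cent54.1 a.2) (g12_nd (x := 0) (by omega)), ?_⟩
    rw [map_mul, map_mul, map_inv, ha, f24_gen (x := 0) (by omega), ← hk, ← hg]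
    group
  comm z w hz hw h := by
    have h1 : f24 (z * w * (w * z)⁻¹) = 1 := by
      rw [map_mul, map_inv, map_mul, map_mul, h.eq, mul_inv_cancel]
    rcases (f24_ker _).1 h1 with e | e
    · exact Subtype.ext (mul_inv_eq_one.1 e)
    · have e' := congrArg Fi24.parity e
      rw [Subgroup.coe_mul, Subgroup.coe_inv, Subgroup.coe_mul, Subgroup.coe_mul, map_mul, map_inv,
        map_mul, map_mul, parity_nd hz.1, parity_nd hw.1, Fi24.parity_g12 (by omega)] at e'
      exact absurd e' (by decide)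

theorem loc24_gen {x : ℕ} (hx : x < 10) : loc24.φ (Fi24.g12 x) = Fi23.g10 x := by
  rw [loc24.φ_eq (Fi24.commute_l hx)]
  exact f24_gen hx

theorem commute24 {x y : ℕ}
    (h : (Fi24.relW.contains [x, y, x, y] || Fi24.relW.contains [y, x, y, x]) = true) :
    Commute (Fi24.g12 x) (Fi24.g12 y) := by
  rcases Bool.or_eq_true _ _ ▸ h with h | h <;>
    have e := Fi24.gword_relW _ (List.contains_iff_mem.1 h) <;>
    simp only [gword_cons, gword_nil, mul_one] at e
  · refine (CfsgLib.Fi23Recog54.commute_iff_sq (Fi24.g12_sq x) (Fi24.g12_sq y)).2 ?_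
    rw [pow_two, mul_assoc]
    exact e
  · refine ((CfsgLib.Fi23Recog54.commute_iff_sq (Fi24.g12_sq y) (Fi24.g12_sq x)).2 ?_).symm
    rw [pow_two, mul_assoc]
    exact e

theorem not_commute_l_k : ¬ Commute (Fi24.g12 10) (Fi24.g12 11) := by
  rw [← Fi24.wone Fi24.g12 11]
  exact CfsgLib.Fi24Type67.not_commute_word Fi24.checksOK (by decide +kernel)

theorem not_commute_a_k : ¬ Commute (Fi24.g12 0) (Fi24.g12 11) := by
  intro h
  have e := Fi24.braid_letters (x := 0) (y := 11) (by decide +kernel)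
  have h0 : Fi24.g12 0 = Fi24.g12 11 := by
    rw [← mul_assoc, ← mul_assoc, h.eq] at e
    rw [mul_assoc (Fi24.g12 11) (Fi24.g12 0) (Fi24.g12 0), Fi24.g12_sq, mul_one] at e
    rw [mul_assoc, h.eq, ← mul_assoc, Fi24.g12_sq, one_mul] at e
    exact e.symm
  exact not_commute_l_k (h0 ▸ (Fi24.commute_l (x := 0) (by omega)).symm)

/-! ### Traces -/

section trace

variable {G : Type w} [Group G] {d : G}

/-- The member commuting with `l` with the same image. -/
noncomputable def theta (L : Loc D23 d) (z : G) : Spor.Fi24 :=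
  letI := Classical.propDecidable (L.φ z ∈ D23)
  if h : L.φ z ∈ D23 then (loc24.φ_onto h).choose else 1

theorem theta_spec (L : Loc D23 d) {z : G} (hz : z ∈ Nd d) :
    theta L z ∈ Nd (Fi24.g12 10) ∧ loc24.φ (theta L z) = L.φ z := by
  rw [theta, dif_pos (L.φ_mem hz)]
  exact (loc24.φ_onto (L.φ_mem hz)).choose_spec

theorem theta_gen (L : Loc D23 d) {z : G} {x : ℕ} (hz : z ∈ Nd d) (hx : x < 10)
    (h : L.φ z = Fi23.g10 x) : theta L z = Fi24.g12 x :=
  loc24.φ_inj (theta_spec L hz).1 (g12_nd hx)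
    ((theta_spec L hz).2.trans (h.trans (loc24_gen hx).symm))

/-- Every trace of the model is a trace in the group. -/
theorem trace_at (L : Loc D23 d) (par : G →* ℤˣ) (hpar : par d = -1) {a : G} (ha : a ∈ Nd d)
    {j : Spor.Fi24} (hj : j ∈ nbr (conjugatesOf (Fi24.g12 10)) (theta L a))
    (hjl : ¬ Commute (Fi24.g12 10) j) :
    ∃ J ∈ nbr (conjugatesOf d) a, ¬ Commute d J ∧
      ∀ x ∈ Od d a, (Commute x J ↔ Commute (theta L x) j) := by
  obtain ⟨haH, haaH⟩ := theta_spec L ha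
  obtain ⟨σ, hσd, hσa⟩ := L.exists_swap single23 ha
  obtain ⟨σH, hHd, hHa⟩ := loc24.exists_swap single23 haH
  have gG := swapMap_gmap L ha hσd hσa
  have gH := swapMap_gmap loc24 haH hHd hHa
  have nH := swap_not_inner loc24 haH hHd hHa Fi24.parity (Fi24.parity_g12 (by omega))
  rw [haaH] at gH nH
  obtain ⟨k, hk, hkm⟩ := inner_comp23 (L.φ_mem ha) gH gG nH
    (swap_not_inner L ha hσd hσa par hpar)
  simp only at hkm
  have hka : Commute k (L.φ a) := commute_of_mem_closure_nbr hk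
  have hka' : k * L.φ a * k⁻¹ = L.φ a := by rw [hka.eq, mul_inv_cancel_right]
  have hzH : σH * j * σH⁻¹ ∈ Nd (Fi24.g12 10) := by
    have h := nbr_conjugates (d := Fi24.g12 10) σH hj
    rwa [hHa] at h
  have hpn : ¬ Commute (L.φ a) (loc24.φ (σH * j * σH⁻¹)) := by
    rw [← haaH, loc24.φ_commute haH hzH, ← hHd, commute_conj_iff']
    exact hjl
  obtain ⟨z, hz, hzp⟩ := L.φ_onto
    (CfsgLib.Fi23Type67.conj_mem_D23 k⁻¹ (loc24.φ_mem hzH))
  rw [inv_inv] at hzp
  have hza : ¬ Commute a z := by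
    rw [← L.φ_commute ha hz, hzp, ← commute_conj_iff' (g := k), hka',
      show k * (k⁻¹ * loc24.φ (σH * j * σH⁻¹) * k) * k⁻¹ = loc24.φ (σH * j * σH⁻¹) by group]
    exact hpn
  have hJ : σ * z * σ⁻¹ ∈ nbr (conjugatesOf d) a := hσd ▸ nbr_conjugates σ hz
  refine ⟨σ * z * σ⁻¹, hJ, fun h => ?_, fun x hx => ?_⟩
  · rw [← hσa] at h
    exact hza (commute_conj_iff'.1 h)
  obtain ⟨x', rfl⟩ : ∃ x', σ * x' * σ⁻¹ = x := ⟨σ⁻¹ * x * σ, by group⟩
  have hx' : x' ∈ Od d a := by
    have h1 := nbr_conjugates σ⁻¹ hx.1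
    have h2 := nbr_conjugates σ⁻¹ hx.2
    rw [show σ⁻¹ * d * σ⁻¹⁻¹ = a by rw [← hσa]; group,
      show σ⁻¹ * (σ * x' * σ⁻¹) * σ⁻¹⁻¹ = x' by group] at h1
    rw [show σ⁻¹ * a * σ⁻¹⁻¹ = d by rw [← hσd]; group,
      show σ⁻¹ * (σ * x' * σ⁻¹) * σ⁻¹⁻¹ = x' by group] at h2
    exact ⟨h2, h1⟩
  obtain ⟨hw, hwe⟩ := theta_spec L hx.1
  have hwn : theta L (σ * x' * σ⁻¹) ∈ nbr (conjugatesOf (Fi24.g12 10)) (theta L a) := by
    refine (loc24.φ_nbr haH hw).1 ?_
    rw [haaH, hwe]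
    exact (L.φ_nbr ha hx.1).2 hx.2
  have hw' : σH * theta L (σ * x' * σ⁻¹) * σH⁻¹ ∈ Nd (Fi24.g12 10) := by
    have h := nbr_conjugates (d := Fi24.g12 10) σH hwn
    rwa [hHa] at h
  have hmn : L.φ x' ∈ nbr D23 (L.φ a) := (L.φ_nbr ha hx'.1).2 hx'.2
  rw [commute_conj_iff', ← L.φ_commute hx'.1 hz, hzp,
    ← commute_conj_iff' (a := theta L (σ * x' * σ⁻¹)) (b := j) (g := σH),
    ← loc24.φ_commute hw' hzH, ← swapMap_eq loc24 σH hw, hwe, ← swapMap_eq L σ hx'.1,
    hkm _ hmn, ← commute_conj_iff' (g := k),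
    show k * (k⁻¹ * loc24.φ (σH * j * σH⁻¹) * k) * k⁻¹ = loc24.φ (σH * j * σH⁻¹) by group]

/-- The member corresponding to the twelfth generator, in a chart. -/
theorem exists_kick_loc (L : Loc D23 d) (par : G →* ℤˣ) (hpar : par d = -1) {t : ℕ → G}
    (ht : ∀ x, x < 10 → t x ∈ Nd d ∧ L.φ (t x) = Fi23.g10 x) :
    ∃ J, IsConj d J ∧ ¬ Commute J d ∧ (J * d) ^ 3 = 1 ∧
      (∀ x, 1 ≤ x → x < 10 → Commute J (t x)) ∧ ¬ Commute J (t 0) ∧ (J * t 0) ^ 3 = 1 := by
  have hth : ∀ x, x < 10 → theta L (t x) = Fi24.g12 x := fun x hx =>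
    theta_gen L (ht x hx).1 hx (ht x hx).2
  have hne : ∀ x y, x < 10 → y < 10 → x ≠ y → t x ≠ t y := fun x y hx hy h e => by
    have h' := (ht x hx).2
    rw [e, (ht y hy).2, Fi23.g10, letterVal_lt _ hx, letterVal_lt _ hy] at h'
    exact h (CfsgLib.Fi23Recog54.gen23_inj hy hx h').symm
  have hcom : ∀ x y, x < 10 → y < 10 → Commute (Fi24.g12 x) (Fi24.g12 y) →
      Commute (t x) (t y) := fun x y hx hy h => by
    rwa [← L.φ_commute (ht x hx).1 (ht y hy).1, (ht x hx).2, (ht y hy).2, ← loc24_gen hx,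
      ← loc24_gen hy, loc24.φ_commute (g12_nd hx) (g12_nd hy)]
  have h9 : ∀ x, x < 9 → x ≠ 6 → Commute (Fi24.g12 9) (Fi24.g12 x) := fun x hx h6 => commute24 <|
    (show ∀ x, x < 9 → x ≠ 6 →
      (Fi24.relW.contains [9, x, 9, x] || Fi24.relW.contains [x, 9, x, 9]) = true by
        decide +kernel) x hx h6
  have h8 : Commute (Fi24.g12 8) (Fi24.g12 6) := commute24 (by decide +kernel)
  have hk : ∀ x, 1 ≤ x → x < 10 → Commute (Fi24.g12 x) (Fi24.g12 11) := fun x h1 hx => commute24 <|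
    (show ∀ x, x < 10 → 1 ≤ x →
      (Fi24.relW.contains [x, 11, x, 11] || Fi24.relW.contains [11, x, 11, x]) = true by
        decide +kernel) x hx h1
  have hget : ∀ c, 1 ≤ c → c < 10 → ∃ J ∈ nbr (conjugatesOf d) (t c), ¬ Commute d J ∧
      ∀ x ∈ Od d (t c), (Commute x J ↔ Commute (theta L x) (Fi24.g12 11)) := fun c h1 hc => by
    refine trace_at L par hpar (ht c hc).1 ⟨Fi24.g12_mem_transClass (by omega), ?_, ?_⟩
      not_commute_l_k
    · rw [hth c hc]
      intro e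
      exact not_commute_l_k (e ▸ (Fi24.commute_l hc).symm)
    · rw [hth c hc]
      exact hk c h1 hc
  have hod : ∀ c x, c < 10 → x < 10 → x ≠ c → Commute (Fi24.g12 c) (Fi24.g12 x) →
      t x ∈ Od d (t c) := fun c x hc hx h hcx =>
    ⟨(ht x hx).1, (ht x hx).1.1, hne x c hx hc h, hcom c x hc hx hcx⟩
  obtain ⟨J, hJ, hdJ, hJt⟩ := hget 9 (by omega) (by omega)
  obtain ⟨P, hP, hdP, hPt⟩ := hget 8 (by omega) (by omega)
  have hJx : ∀ x, x < 9 → x ≠ 6 → (Commute (t x) J ↔ Commute (Fi24.g12 x) (Fi24.g12 11)) :=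
    fun x hx h6 => by
      rw [hJt _ (hod 9 x (by omega) (by omega) (by omega) (h9 x hx h6)), hth x (by omega)]
  have hJ9 : Commute (t 9) J := hJ.2.2
  have hJ8 : Commute (t 8) J := (hJx 8 (by omega) (by omega)).2 (hk 8 (by omega) (by omega))
  have h98 : t 8 ∈ Od d (t 9) :=
    hod 9 8 (by omega) (by omega) (by omega) (h9 8 (by omega) (by omega))
  have h89 : t 9 ∈ Od d (t 8) :=
    hod 8 9 (by omega) (by omega) (by omega) (h9 8 (by omega) (by omega)).symm
  have hP9 : Commute (t 9) P := by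
    rw [hPt _ h89, hth 9 (by omega)]
    exact hk 9 (by omega) (by omega)
  have hP6 : Commute (t 6) P := by
    rw [hPt _ (hod 8 6 (by omega) (by omega) (by omega) h8), hth 6 (by omega)]
    exact hk 6 (by omega) (by omega)
  have hJ6 : Commute (t 6) J := by
    have hne' : ∀ {z : G}, Commute d z → z ≠ J := fun hz e => hdJ (e ▸ hz)
    have hne'' : ∀ {z : G}, Commute d z → z ≠ P := fun hz e => hdP (e ▸ hz)
    rcases eq_or_dconj L (ht 9 (by omega)).1 h98 hJ
        ⟨hJ.1, (hne' (ht 8 (by omega)).1.2.2).symm, hJ8⟩ hdJ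
        ⟨hP.1, (hne'' (ht 9 (by omega)).1.2.2).symm, hP9⟩ hP hdP
        (fun z hz hzi hzP => (hJt z hz).2 ((hPt z ⟨hz.1, hzi⟩).1 hzP)) with e | e
    · exact e ▸ hP6
    · rw [e, show t 6 = d * t 6 * d⁻¹ by
        rw [(ht 6 (by omega)).1.2.2.eq, mul_inv_cancel_right], commute_conj_iff']
      exact hP6
  have hJ0 : ¬ Commute (t 0) J := fun h =>
    not_commute_a_k ((hJx 0 (by omega) (by omega)).1 h)
  obtain ⟨F, -, -, hpow⟩ := exists_chart L (ht 9 (by omega)).1.1
  have hd9 : d ∈ nbr (conjugatesOf d) (t 9) := ⟨mem_conjugatesOf_self,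
    (ht 9 (by omega)).1.2.1.symm, (ht 9 (by omega)).1.2.2.symm⟩
  refine ⟨J, hJ.1, fun h => hdJ h.symm, hpow J hJ d hd9 fun h => hdJ h.symm, fun x h1 hx => ?_,
    fun h => hJ0 h.symm,
    hpow J hJ _ (hod 9 0 (by omega) (by omega) (by omega) (h9 0 (by omega) (by omega))).2
      fun h => hJ0 h.symm⟩
  by_cases e9 : x = 9
  · exact e9 ▸ hJ9.symm
  by_cases e6 : x = 6
  · exact e6 ▸ hJ6.symm
  exact ((hJx x (by omega) e6).2 (hk x h1 hx)).symm

end trace

/-! ### The configuration -/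

section cfg

variable {X : Type w} [Group X] {G₀ : Subgroup X} {z d t u v : X}

/-- The two cosets of the subgroup of index two. -/
theorem Cfg.exists_parity (C : Cfg G₀ z d t u v) :
    ∃ par : X →* ℤˣ, par d = -1 ∧ ∀ g, g ∈ G₀ ↔ par g = 1 := by
  classical
  obtain ⟨f, hf⟩ : ∃ f : X → ℤˣ, ∀ g, f g = if g ∈ G₀ then 1 else -1 := ⟨_, fun _ => rfl⟩
  refine ⟨MonoidHom.mk' f fun a b => ?_, ?_, fun g => ?_⟩
  · simp only [hf, Subgroup.mul_mem_iff_of_index_two C.idx]
    by_cases ha : a ∈ G₀ <;> by_cases hb : b ∈ G₀ <;> simp [ha, hb]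
  · show f d = -1
    rw [hf, if_neg C.d_out]
  · show g ∈ G₀ ↔ f g = 1
    rw [hf]
    by_cases hg : g ∈ G₀
    · simp [hg]
    · simp [hg]

/-- The members commuting with `d`, in the chart. -/
theorem Cfg.nd_iff (C : Cfg G₀ z d t u v) {x : X} : x ∈ Nd d ↔
    ∃ y : ↥(G₀ ⊓ Subgroup.centralizer ({d} : Set X)), C.e y ∈ D23 ∧ x = d * y := by
  constructor
  · exact fun hx => C.nd x hx.1 hx.2.2.symm hx.2.1
  · rintro ⟨y, hy, rfl⟩
    refine ⟨C.ndc y hy, fun e => ?_, (Commute.refl d).mul_right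
      (CfsgLib.Fi23Recog54.mem_cent54.1 y.2.2).symm⟩
    have h1 : (y : X) = 1 := mul_eq_left.1 e
    rw [show y = 1 from Subtype.ext h1, map_one] at hy
    exact tt_ne_one ttg23.1 hy rfl

/-- The even part of an element of the centralizer of `d`. -/
noncomputable def Cfg.even (_C : Cfg G₀ z d t u v) (g : X) : X :=
  haveI := Classical.propDecidable (g ∈ G₀)
  if g ∈ G₀ then g else d * g

theorem Cfg.even_mem (C : Cfg G₀ z d t u v) (g : ↥(Subgroup.centralizer ({d} : Set X))) :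
    C.even g ∈ G₀ ⊓ Subgroup.centralizer ({d} : Set X) := by
  rw [Cfg.even]
  split_ifs with h
  · exact ⟨h, g.2⟩
  · exact ⟨(Subgroup.mul_mem_iff_of_index_two C.idx).2 (iff_of_false C.d_out h),
      mul_mem (mem_cent54.2 (Commute.refl d)) g.2⟩

/-- The map of the centralizer of `d` onto Fi23. -/
noncomputable def Cfg.locHom (C : Cfg G₀ z d t u v) :
    ↥(Subgroup.centralizer ({d} : Set X)) →* Spor.Fi23 :=
  MonoidHom.mk' (fun g => C.e ⟨C.even g, C.even_mem g⟩) fun a b => by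
    rw [← map_mul]
    congr 1
    refine Subtype.ext ?_
    show C.even ((a : X) * b) = C.even a * C.even b
    have hab := (mem_cent54.1 a.2).eq
    have hm := Subgroup.mul_mem_iff_of_index_two C.idx (a := (a : X)) (b := (b : X))
    simp only [Cfg.even]
    by_cases ha : (a : X) ∈ G₀ <;> by_cases hb : (b : X) ∈ G₀
    · rw [if_pos (hm.2 (iff_of_true ha hb)), if_pos ha, if_pos hb]
    · rw [if_neg (fun h => hb ((hm.1 h).1 ha)), if_pos ha, if_neg hb, ← mul_assoc, ← mul_assoc, hab]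
    · rw [if_neg (fun h => ha ((hm.1 h).2 hb)), if_neg ha, if_pos hb, mul_assoc]
    · rw [if_pos (hm.2 (iff_of_false ha hb)), if_neg ha, if_neg hb, ← mul_assoc, mul_assoc d,
        hab, ← mul_assoc d d, C.d_sq, one_mul]

theorem Cfg.locHom_mul (C : Cfg G₀ z d t u v) (y : ↥(G₀ ⊓ Subgroup.centralizer ({d} : Set X)))
    (g : ↥(Subgroup.centralizer ({d} : Set X))) (hg : (g : X) = d * y) :
    C.locHom g = C.e y := by
  refine congrArg C.e (Subtype.ext ?_)
  show C.even g = y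
  rw [Cfg.even, hg, if_neg fun h => C.d_out ((Subgroup.mul_mem_cancel_right G₀ y.2.1).1 h),
    ← mul_assoc, C.d_sq, one_mul]

/-- The chart of the configuration at `d`. -/
noncomputable def Cfg.loc (C : Cfg G₀ z d t u v) : Loc D23 d where
  f := C.locHom
  surj m := by
    refine ⟨⟨(C.e.symm m : X), (C.e.symm m).2.2⟩, (congrArg C.e (Subtype.ext ?_)).trans
      (C.e.apply_symm_apply m)⟩
    show C.even (C.e.symm m : X) = _
    rw [Cfg.even, if_pos (show (C.e.symm m : X) ∈ G₀ from (C.e.symm m).2.1)]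
  sq := C.d_sq
  ne := fun e => C.d_out (e ▸ one_mem G₀)
  ker k := by
    rw [show C.locHom k = C.e ⟨C.even k, C.even_mem k⟩ from rfl, C.e.map_eq_one_iff]
    constructor
    · intro h
      have h' : C.even k = 1 := congrArg Subtype.val h
      rw [Cfg.even] at h'
      split_ifs at h' with hk
      · exact Or.inl h'
      · exact Or.inr ((eq_inv_of_mul_eq_one_right h').trans (inv_eq_of_mul_eq_one_right C.d_sq))
    · intro h
      refine Subtype.ext ?_
      show C.even k = 1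
      rw [Cfg.even]
      rcases h with h | h <;> rw [h]
      · rw [if_pos (one_mem G₀)]
      · rw [if_neg C.d_out, C.d_sq]
  mem g hg := by
    obtain ⟨y, hy, e⟩ := C.nd_iff.1 hg
    rwa [C.locHom_mul y g e]
  inj a b ha hb h := by
    obtain ⟨y, -, e⟩ := C.nd_iff.1 ha
    obtain ⟨y', -, e'⟩ := C.nd_iff.1 hb
    rw [C.locHom_mul y a e, C.locHom_mul y' b e', C.e.injective.eq_iff] at h
    exact Subtype.ext (by rw [e, e', h])
  onto m hm := by
    obtain ⟨y, rfl⟩ := C.e.surjective m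
    exact ⟨⟨d * y, mul_mem (mem_cent54.2 (Commute.refl d)) y.2.2⟩,
      C.nd_iff.2 ⟨y, hm, rfl⟩, C.locHom_mul y _ rfl⟩
  comm a b ha hb h := by
    obtain ⟨y, -, e⟩ := C.nd_iff.1 ha
    obtain ⟨y', -, e'⟩ := C.nd_iff.1 hb
    rw [C.locHom_mul y a e, C.locHom_mul y' b e'] at h
    have h' : y * y' = y' * y := C.e.injective (by rw [map_mul, map_mul, h.eq])
    have hyy : Commute (y : X) y' := congrArg Subtype.val h'
    have hy : Commute (y : X) d := mem_cent54.1 y.2.2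
    have hy' : Commute (y' : X) d := mem_cent54.1 y'.2.2
    refine Subtype.ext ?_
    show (a : X) * b = b * a
    rw [e, e']
    exact (((Commute.refl d).mul_right hy'.symm).mul_left (hy.mul_right hyy)).eq

theorem Cfg.loc_φ (C : Cfg G₀ z d t u v) (y : ↥(G₀ ⊓ Subgroup.centralizer ({d} : Set X))) :
    C.loc.φ (d * y) = C.e y := by
  rw [C.loc.φ_eq ((Commute.refl d).mul_left (mem_cent54.1 y.2.2))]
  exact C.locHom_mul y _ rfl

/-- The member corresponding to the twelfth generator. -/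
theorem exists_kick (C : Cfg G₀ z d t u v) : ∃ J, IsConj d J ∧ ¬ Commute J d ∧ (J * d) ^ 3 = 1 ∧
    (∀ x, 1 ≤ x → x < 10 → Commute J (d * (C.e.symm (Fi23.g10 x) : X))) ∧
    ¬ Commute J (d * (C.e.symm (Fi23.g10 0) : X)) ∧
    (J * (d * (C.e.symm (Fi23.g10 0) : X))) ^ 3 = 1 := by
  obtain ⟨par, hpar, -⟩ := C.exists_parity
  exact exists_kick_loc C.loc par hpar (t := fun x => d * (C.e.symm (Fi23.g10 x) : X)) fun x hx =>
    ⟨C.nd_iff.2 ⟨_, by
      rw [C.e.apply_symm_apply]; exact CfsgLib.Fi23Type67.g10_mem_D hx, rfl⟩,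
      by rw [C.loc_φ, C.e.apply_symm_apply]⟩

end cfg

end CfsgLib.AutLf48
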