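import Cfsg.Agent.AutLf48.Kick
import Cfsg.Agent.AutLf48.UniqueCert
import Cfsg.Agent.ThreeTransp.M23Graph58
import Cfsg.Agent.ThreeTransp.M23Inv

/-!
The member `J` of the configuration is determined up to conjugation by `d`, and a conjugate of `d`
commuting with the product of two commuting conjugates commutes with both.
-/

set_option autoImplicit false
set_option maxRecDepth 8000

namespace CfsgLib.AutLf48

open Cfsg CfsgLib.ThreeTransp CfsgLib.ThreeTransp.Cover58 CfsgLib.CosetEnum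
open CfsgLib.Fi23Recog54 (Loc Nd nd_conj nbr_conjugates mem_cent54)
open CfsgLib.Fi23Type67 (D23)

universe w

variable {X : Type w} [Group X] {G₀ : Subgroup X} {z d t u v : X}

theorem Cfg.commute_d (_C : Cfg G₀ z d t u v)
    (y : ↥(G₀ ⊓ Subgroup.centralizer ({d} : Set X))) : Commute (y : X) d :=
  mem_cent54.1 y.2.2

theorem Cfg.lift_nd (C : Cfg G₀ z d t u v) {m : Spor.Fi23} (hm : m ∈ D23) :
    d * (C.e.symm m : X) ∈ Nd d :=
  C.nd_iff.2 ⟨_, by rwa [C.e.apply_symm_apply], rfl⟩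

theorem Cfg.lift_φ (C : Cfg G₀ z d t u v) (m : Spor.Fi23) :
    C.loc.φ (d * (C.e.symm m : X)) = m := by
  rw [C.loc_φ, C.e.apply_symm_apply]

theorem Cfg.lift_conj (C : Cfg G₀ z d t u v) {g y : Spor.Fi23} (hg : g ∈ D23) (hy : y ∈ D23) :
    d * (C.e.symm g : X) * (d * (C.e.symm y : X)) * (d * (C.e.symm g : X))⁻¹ =
      d * (C.e.symm (g * y * g⁻¹) : X) := by
  refine C.loc.φ_inj (nd_conj (C.lift_nd hg).2.2.symm (C.lift_nd hy))
    (C.lift_nd (CfsgLib.Fi23Type67.conj_mem_D23 g hy)) ?_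
  rw [C.loc.φ_conj (C.lift_nd hg).2.2.symm (C.lift_nd hy).2.2.symm]
  simp only [C.lift_φ]

/-- The members not commuting with `d` with the same nine neighbours agree up to `d`. -/
theorem kick_unique (C : Cfg G₀ z d t u v) {J J' : X} (hJ : IsConj d J) (hJd : ¬ Commute J d)
    (hJc : ∀ x, 1 ≤ x → x < 10 → Commute J (d * (C.e.symm (Fi23.g10 x) : X)))
    (hJ' : IsConj d J') (hJ'd : ¬ Commute J' d)
    (hJ'c : ∀ x, 1 ≤ x → x < 10 → Commute J' (d * (C.e.symm (Fi23.g10 x) : X))) :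
    J' = J ∨ J' = d * J * d⁻¹ := by
  classical
  have := Fi23.finite_fi23
  have hgen : ∀ x, x < 10 → Fi23.g10 x = Fi23.gen x := fun x hx => letterVal_lt _ hx
  let f : Spor.Fi23 → X := fun m => d * (C.e.symm m : X)
  have ha : f (Fi23.g10 1) ∈ Nd d := C.lift_nd (CfsgLib.Fi23Type67.g10_mem_D (by omega))
  obtain ⟨F, hF, hFc, -⟩ := exists_chart C.loc ha.1
  have hd : d ∈ nbr (conjugatesOf d) (f (Fi23.g10 1)) :=
    ⟨mem_conjugatesOf_self, ha.2.1.symm, ha.2.2.symm⟩
  have hJa : J ∈ nbr (conjugatesOf d) (f (Fi23.g10 1)) :=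
    ⟨hJ, fun e => hJd (e.symm ▸ ha.2.2.symm), (hJc 1 le_rfl (by omega)).symm⟩
  have hJ'a : J' ∈ nbr (conjugatesOf d) (f (Fi23.g10 1)) :=
    ⟨hJ', fun e => hJ'd (e.symm ▸ ha.2.2.symm), (hJ'c 1 le_rfl (by omega)).symm⟩
  obtain ⟨S, hScard, hSn, hScl⟩ := UniqueCert.exists_members
  have hcl := hScl (fun y => y ∈ D23 ∧ Commute J (f y) ∧ Commute J' (f y))
    (by
      rw [← hgen 1 (by omega)]
      exact ⟨CfsgLib.Fi23Type67.g10_mem_D (by omega), hJc 1 le_rfl (by omega),
        hJ'c 1 le_rfl (by omega)⟩)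
    (fun x h1 hx y hy => by
      have hg : Fi23.g10 x ∈ D23 := CfsgLib.Fi23Type67.g10_mem_D hx
      have e : Fi23.gen x * y * Fi23.gen x = Fi23.g10 x * y * (Fi23.g10 x)⁻¹ := by
        rw [hgen x hx, Fi23.gen_inv]
      rw [e]
      refine ⟨CfsgLib.Fi23Type67.conj_mem_D23 _ hy.1, ?_, ?_⟩
      · show Commute J (d * (C.e.symm _ : X))
        rw [← C.lift_conj hg hy.1]
        exact ((hJc x h1 hx).mul_right hy.2.1).mul_right (hJc x h1 hx).inv_right
      · show Commute J' (d * (C.e.symm _ : X))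
        rw [← C.lift_conj hg hy.1]
        exact ((hJ'c x h1 hx).mul_right hy.2.2).mul_right (hJ'c x h1 hx).inv_right)
  have hfa : ∀ y ∈ S, f y ∈ nbr (conjugatesOf d) (f (Fi23.g10 1)) := fun y hy =>
    (C.loc.φ_nbr ha (C.lift_nd (hSn y hy).1)).1 (by
      show C.loc.φ (d * _) ∈ nbr D23 (C.loc.φ (d * _))
      rw [C.lift_φ, C.lift_φ, hgen 1 (by omega)]
      exact hSn y hy)
  have hne : ∀ y ∈ S, ∀ {K : X}, ¬ Commute K d → f y ≠ K := fun y hy K hK e =>
    hK (e ▸ (C.lift_nd (hSn y hy).1).2.2.symm)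
  have hsub : ((S.image fun y => F (f y) : Finset Spor.Fi23) : Set Spor.Fi23) ⊆
      nbr D23 (F d) ∩ nbr D23 (F J') := by
    intro m hm
    obtain ⟨y, hy, rfl⟩ := Finset.mem_image.1 hm
    refine ⟨(hF.nbr_iff (nbr_subset _ _) (Set.Subset.refl D23) hd (hfa y hy)).2 ?_,
      (hF.nbr_iff (nbr_subset _ _) (Set.Subset.refl D23) hJ'a (hfa y hy)).2
        ⟨(hfa y hy).1, hne y hy hJ'd, (hcl y hy).2.2⟩⟩
    exact C.lift_nd (hSn y hy).1
  have hinj : Set.InjOn (fun y => F (f y)) (S : Set Spor.Fi23) := by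
    intro p hp q hq e
    have e' : f p = f q := hF.inj (hfa p hp) (hfa q hq) e
    have e'' := congrArg C.loc.φ e'
    simp only [f, C.lift_φ] at e''
    exact e''
  have hnc : ¬ Commute (F d) (F J') := fun h => hJ'd ((hF.comm d hd J' hJ'a).1 h).symm
  have hcard := (m23_level ttg23 CfsgLib.Fi23Type67.primitive23 CfsgLib.Fi23Type67.type23).card_nc
    (F d) (F J') (hF.mem d hd) (hF.mem J' hJ'a) hnc
  have heq := Set.eq_of_subset_of_ncard_le hsub
    (le_of_eq (by rw [hcard, Set.ncard_coe_finset, Finset.card_image_of_injOn hinj, hScard]))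
    (Set.toFinite _)
  have hPd : d * J' * d⁻¹ ∈ nbr (conjugatesOf d) (f (Fi23.g10 1)) := by
    have h := nbr_conjugates (d := d) d hJ'a
    rwa [show d * f (Fi23.g10 1) * d⁻¹ = f (Fi23.g10 1) by
      rw [ha.2.2.eq, mul_inv_cancel_right]] at h
  rcases (m23_lineSet ttg23 CfsgLib.Fi23Type67.primitive23 CfsgLib.Fi23Type67.type23).line
      (F d) (hF.mem d hd) (F J') (hF.mem J' hJ'a) hnc (F J) (hF.mem J hJa)
      (fun w _ hwd hwJ' => by
        have hm : w ∈ ((S.image fun y => F (f y) : Finset Spor.Fi23) : Set Spor.Fi23) := by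
          rw [heq]; exact ⟨hwd, hwJ'⟩
        obtain ⟨y, hy, rfl⟩ := Finset.mem_image.1 hm
        exact (hF.nbr_iff (nbr_subset _ _) (Set.Subset.refl D23) hJa (hfa y hy)).2
          ⟨(hfa y hy).1, hne y hy hJd, (hcl y hy).2.1⟩) with e | e | e
  · exact absurd (hF.inj hJa hd e) fun h => hJd (h ▸ Commute.refl d)
  · exact Or.inl (hF.inj hJa hJ'a e).symm
  · refine Or.inr ?_
    have e' : J = d * J' * d⁻¹ := hF.inj hJa hPd
      (by rw [e, hFc d hd J' hJ'a, tt_inv ttg23.1 (hF.mem d hd)])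
    have hdi : d⁻¹ = d := inv_eq_of_mul_eq_one_right C.d_sq
    rw [e', hdi, ← mul_assoc d (d * J') d, ← mul_assoc d d J', C.d_sq, one_mul, mul_assoc,
      C.d_sq, mul_one]

theorem Cfg.t_d (C : Cfg G₀ z d t u v) : Commute t d := C.tY_coe ▸ C.commute_d C.tY

theorem Cfg.t_sq (C : Cfg G₀ z d t u v) : t * t = 1 := by
  have h : C.tY * C.tY = 1 := C.e.injective (by
    rw [map_mul, map_one, tt_mul_self ttg23.1 C.tY_cls])
  have h' := congrArg Subtype.val h
  rwa [Subgroup.coe_mul, C.tY_coe] at h'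

/-- Commuting different conjugates of `d` are conjugate to `d, d * t`. -/
theorem Cfg.pair_move (C : Cfg G₀ z d t u v) {P R : X} (hP : IsConj d P) (hR : IsConj d R)
    (hne : P ≠ R) (hc : Commute P R) :
    ∃ k : X, k * d * k⁻¹ = P ∧ k * (d * t) * k⁻¹ = R := by
  obtain ⟨g, rfl⟩ := isConj_iff.1 hP
  obtain ⟨R', rfl⟩ : ∃ R', g * R' * g⁻¹ = R := ⟨g⁻¹ * R * g, by group⟩
  have hR' : IsConj d R' := hR.trans (isConj_iff.2 ⟨g⁻¹, by group⟩)
  obtain ⟨y, hy, rfl⟩ :=
    C.nd R' hR' (commute_conj_iff'.1 hc).symm fun e => hne (by rw [e])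
  obtain ⟨c, hc'⟩ := single23 _ C.tY_cls _ hy
  have h : C.e.symm c * C.tY * (C.e.symm c)⁻¹ = y :=
    C.e.injective (by rw [map_mul, map_mul, map_inv, C.e.apply_symm_apply, hc'])
  have h' : (C.e.symm c : X) * t * (C.e.symm c : X)⁻¹ = y := by
    have := congrArg Subtype.val h
    rwa [Subgroup.coe_mul, Subgroup.coe_mul, Subgroup.coe_inv, C.tY_coe] at this
  have hcd : (C.e.symm c : X) * d * (C.e.symm c : X)⁻¹ = d := by
    rw [(C.commute_d _).eq, mul_inv_cancel_right]
  refine ⟨g * (C.e.symm c : X), ?_, ?_⟩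
  · rw [show g * (C.e.symm c : X) * d * (g * (C.e.symm c : X))⁻¹ =
      g * ((C.e.symm c : X) * d * (C.e.symm c : X)⁻¹) * g⁻¹ by group, hcd]
  · rw [show g * (C.e.symm c : X) * (d * t) * (g * (C.e.symm c : X))⁻¹ =
      g * (((C.e.symm c : X) * d * (C.e.symm c : X)⁻¹) *
        ((C.e.symm c : X) * t * (C.e.symm c : X)⁻¹)) * g⁻¹ by group, hcd, h']

/-- Commuting conjugates of `d` with product `t` are `d, d * t`. -/
theorem Cfg.pair_eq (C : Cfg G₀ z d t u v) {P R : X} (hP : IsConj d P) (hR : IsConj d R)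
    (hne : P ≠ R) (hc : Commute P R) (h : P * R = t) : P = d ∨ P = d * t := by
  obtain ⟨k, hkP, hkR⟩ := C.pair_move hP hR hne hc
  have hk : Commute k t := mul_inv_eq_iff_eq_mul.1 (by
    rw [← hkP, ← hkR, conj_mul, ← mul_assoc d d t, C.d_sq, one_mul] at h
    exact h)
  rcases C.cent_t k hk with e | e
  · exact Or.inl (hkP.symm.trans e)
  · exact Or.inr (hkP.symm.trans e)

/-- A conjugate of `d` commuting with `t` commutes with `d`. -/
theorem Cfg.split_t (C : Cfg G₀ z d t u v) {j : X} (hj : IsConj d j) (hjt : Commute j t) :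
    Commute j d := by
  have := Fi23.finite_fi23
  obtain ⟨g, rfl⟩ := isConj_iff.1 hj
  have htd := C.t_d
  -- a member `P` of a pair with product `t` that commutes with `j`
  have key : ∀ {P R : X}, IsConj d P → IsConj d R → P ≠ R → Commute P R → P * R = t →
      Commute (g * d * g⁻¹) P → Commute (g * d * g⁻¹) d := by
    intro P R hP hR hne hc h hjP
    rcases C.pair_eq hP hR hne hc h with e | e
    · exact e ▸ hjP
    · have h2 := (e ▸ hjP).mul_right hjt
      rwa [mul_assoc d t t, C.t_sq, mul_one] at h2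
  haveI := Subgroup.normal_of_index_eq_two C.idx
  have ht0 : t ∈ G₀ := C.tY_coe ▸ C.tY.2.1
  have hyd : Commute (g⁻¹ * t * g) d := by
    have h := (commute_conj_iff' (g := g⁻¹) (a := t) (b := g * d * g⁻¹)).2 hjt.symm
    rwa [inv_inv, show g⁻¹ * (g * d * g⁻¹) * g = d by group] at h
  obtain ⟨y, hy⟩ : ∃ y : ↥(G₀ ⊓ Subgroup.centralizer ({d} : Set X)), (y : X) = g⁻¹ * t * g :=
    ⟨⟨g⁻¹ * t * g,
      by simpa using (inferInstance : G₀.Normal).conj_mem t ht0 g⁻¹, mem_cent54.2 hyd⟩, rfl⟩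
  have hgy : g * (y : X) * g⁻¹ = t := by rw [hy]; group
  have hy2 : y * y = 1 := Subtype.ext (by
    rw [Subgroup.coe_mul, hy, Subgroup.coe_one,
      show g⁻¹ * t * g * (g⁻¹ * t * g) = g⁻¹ * (t * t) * g by group, C.t_sq]
    group)
  have hy1 : y ≠ 1 := fun e => by
    rw [e, Subgroup.coe_one, mul_one, mul_inv_cancel] at hgy
    exact tt_ne_one ttg23.1 C.tY_cls
      (by rw [show C.tY = 1 from Subtype.ext (C.tY_coe.trans hgy.symm), map_one])
  have ho : orderOf (C.e y) = 2 :=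
    orderOf_eq_prime (by rw [pow_two, ← map_mul, hy2, map_one])
      fun e => hy1 (C.e.map_eq_one_iff.1 e)
  obtain ⟨m, h1, h3, l, hl⟩ :=
    m23_involution_fact ttg23 CfsgLib.Fi23Type67.primitive23 CfsgLib.Fi23Type67.type23 ho
  obtain ⟨hnd, hlen, hm, hc, hprod⟩ := hl
  interval_cases m
  · match l, hlen with
    | [a], _ =>
      have hya : C.e y ∈ D23 := by
        rw [List.prod_singleton] at hprod
        exact hprod ▸ hm a (by simp)
      have hdy : d * (d * (y : X)) = y := by rw [← mul_assoc, C.d_sq, one_mul]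
      refine key (isConj_iff.2 ⟨g, rfl⟩) ((C.ndc y hya).trans (isConj_iff.2 ⟨g, rfl⟩)) (fun e => ?_)
        (commute_conj_iff'.2 ((Commute.refl d).mul_right (C.commute_d y).symm))
        (by rw [conj_mul, hdy, hgy]) (Commute.refl _)
      exact hy1 (Subtype.ext (mul_eq_left.1 (mul_left_cancel (mul_right_cancel e)).symm))
  · match l, hlen with
    | [a, b], _ =>
      have hab : a ≠ b := by simpa using hnd
      have hA := C.lift_nd (hm a (by simp))
      have hB := C.lift_nd (hm b (by simp))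
      have hAB : d * (C.e.symm a : X) * (d * (C.e.symm b : X)) = y := by
        have e : C.e.symm a * C.e.symm b = y := C.e.injective (by
          rw [map_mul, C.e.apply_symm_apply, C.e.apply_symm_apply]
          simpa using hprod)
        rw [← (C.commute_d (C.e.symm a)).eq, mul_assoc, ← mul_assoc d d, C.d_sq, one_mul,
          ← Subgroup.coe_mul, e]
      refine key (hA.1.trans (isConj_iff.2 ⟨g, rfl⟩)) (hB.1.trans (isConj_iff.2 ⟨g, rfl⟩))
        (fun e => hab ?_) (commute_conj_iff'.2 ((C.loc.φ_commute hA hB).1 ?_))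
        (by rw [conj_mul, hAB, hgy]) (commute_conj_iff'.2 hA.2.2)
      · have h := congrArg C.loc.φ (mul_left_cancel (mul_right_cancel e))
        rwa [C.lift_φ, C.lift_φ] at h
      · rw [C.lift_φ, C.lift_φ]
        exact hc a (by simp) b (by simp)
  · exfalso
    have hcomm : ∀ p q : ↥(G₀ ⊓ Subgroup.centralizer ({d} : Set X)), Commute (p : X) q →
        Commute (C.e p) (C.e q) := fun p q h => by
      have h' : Commute p q := Subtype.ext h.eq
      exact h'.map C.e
    have hne : ∀ p q : ↥(G₀ ⊓ Subgroup.centralizer ({d} : Set X)), (p : X) ≠ q →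
        C.e p ≠ C.e q := fun p q h e => h (congrArg Subtype.val (C.e.injective e))
    have htu := hcomm C.tY C.uY (by rw [C.tY_coe, C.uY_coe]; exact C.tu.2)
    have huv := hcomm C.uY C.vY (by rw [C.uY_coe, C.vY_coe]; exact C.uv.2)
    have htv := hcomm C.tY C.vY (by rw [C.tY_coe, C.vY_coe]; exact C.tv.2)
    have hl' : IsFact D23 3 (C.e (C.tY * C.uY * C.vY)) [C.e C.tY, C.e C.uY, C.e C.vY] := by
      refine ⟨?_, rfl, ?_, ?_, by simp [mul_assoc]⟩
      · have n1 := hne C.tY C.uY (by rw [C.tY_coe, C.uY_coe]; exact C.tu.1)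
        have n2 := hne C.uY C.vY (by rw [C.uY_coe, C.vY_coe]; exact C.uv.1)
        have n3 := hne C.tY C.vY (by rw [C.tY_coe, C.vY_coe]; exact C.tv.1)
        simp [n1, n2, n3]
      · simp [C.tY_cls, C.uY_cls, C.vY_cls]
      · intro a ha b hb
        simp only [List.mem_cons, List.not_mem_nil, or_false] at ha hb
        rcases ha with rfl | rfl | rfl <;> rcases hb with rfl | rfl | rfl <;>
          first | exact Commute.refl _ | assumption | exact Commute.symm (by assumption)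
    obtain ⟨k, hk⟩ := m23_fact_conj ttg23 CfsgLib.Fi23Type67.primitive23 CfsgLib.Fi23Type67.type23
      (by norm_num) le_rfl ⟨hnd, hlen, hm, hc, hprod⟩ hl'
    have hk' : C.e.symm k * y * (C.e.symm k)⁻¹ = C.tY * C.uY * C.vY :=
      C.e.injective (by rw [map_mul, map_mul, map_inv, C.e.apply_symm_apply, hk])
    have hz : ((C.tY * C.uY * C.vY : ↥(G₀ ⊓ Subgroup.centralizer ({d} : Set X))) : X) = z := by
      rw [Subgroup.coe_mul, Subgroup.coe_mul, C.tY_coe, C.uY_coe, C.vY_coe, C.prod]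
    have hk'' := congrArg Subtype.val hk'
    rw [hz, Subgroup.coe_mul, Subgroup.coe_mul, Subgroup.coe_inv, hy] at hk''
    have hh : (C.e.symm k : X) * g⁻¹ * t * ((C.e.symm k : X) * g⁻¹)⁻¹ = z := by
      refine Eq.trans ?_ hk''
      group
    by_cases hmem : (C.e.symm k : X) * g⁻¹ ∈ G₀
    · exact C.not_conj _ hmem hh
    · refine C.not_conj (d * ((C.e.symm k : X) * g⁻¹))
        ((Subgroup.mul_mem_iff_of_index_two C.idx).2 (iff_of_false C.d_out hmem)) ?_
      rw [show d * ((C.e.symm k : X) * g⁻¹) * t * (d * ((C.e.symm k : X) * g⁻¹))⁻¹ =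
        d * ((C.e.symm k : X) * g⁻¹ * t * ((C.e.symm k : X) * g⁻¹)⁻¹) * d⁻¹ by group, hh,
        ← hz, (C.commute_d _).symm.eq, mul_inv_cancel_right]

/-- A conjugate of `d` commuting with the product of two commuting conjugates commutes with
both. -/
theorem pair_split (C : Cfg G₀ z d t u v) (a b j : X) (ha : IsConj d a) (hb : IsConj d b)
    (hj : IsConj d j) (hne : a ≠ b) (hc : Commute a b) (h : Commute j (a * b)) :
    Commute j a ∧ Commute j b := by
  obtain ⟨k, rfl, rfl⟩ := C.pair_move ha hb hne hc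
  obtain ⟨j', rfl⟩ : ∃ j', k * j' * k⁻¹ = j := ⟨k⁻¹ * j * k, by group⟩
  rw [conj_mul, ← mul_assoc d d t, C.d_sq, one_mul] at h
  have hjt := commute_conj_iff'.1 h
  have hjd := C.split_t (hj.trans (isConj_iff.2 ⟨k⁻¹, by group⟩)) hjt
  exact ⟨commute_conj_iff'.2 hjd, commute_conj_iff'.2 (hjd.mul_right hjt)⟩

end CfsgLib.AutLf48
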