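import Cfsg.Agent.AutLf48.HomCore
import Cfsg.Agent.AutLf48.Kick
import Cfsg.Agent.AutLf48.Unique
import Cfsg.Agent.AutLf48.Relator

/-!
Automorphism groups of groups of large Fischer type: the presented Fi24 maps into the group, `l`
going to `d`, with the centralizer of `d` in its image.
-/

set_option autoImplicit false

namespace CfsgLib.AutLf48

open Cfsg CfsgLib.CosetEnum CfsgLib.CosetEnum.Fi24

universe w

variable {X : Type w} [Group X] {G₀ : Subgroup X} {z d t u v : X}

/-- The map of the presented Fi24. -/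
theorem Cfg.exists_hom (C : Cfg G₀ z d t u v) : ∃ φ : Spor.Fi24 →* X, Function.Injective φ ∧
    φ (g12 10) = d ∧ Subgroup.centralizer ({d} : Set X) ≤ φ.range := by
  obtain ⟨J, hJ, hdJ, hJd, hJs, hJ0n, hJ0⟩ := exists_kick C
  refine C.exists_hom_of hJ fun r hr => ?_
  have hinv := C.img_inv hJ
  have hrel := C.img_rels hJ hJd hJs hJ0
  have hcW : gword (C.img J) cW = 1 := cW_rel (C.img J) hinv C.rho
    (fun x hx => C.rho_g12 J hx) hrel
    (by
      rw [show C.img J 11 = J by simp [Cfg.img]]
      exact C.wl_commute hJ hdJ hJs (pair_split C)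
        (fun J' h1 h2 h3 => kick_unique C hJ hdJ hJs h1 h2 h3))
  by_cases h1 : r = cW
  · rw [h1, hcW]
  by_cases h2 : r = cW.reverse
  · rw [h2, wrev hinv, hcW, inv_one]
  exact hrel r hr h1 h2

end CfsgLib.AutLf48
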