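import Cfsg.Agent.AutLf48.Defs
import Cfsg.Agent.Fi24Type67.Main
import Cfsg.Agent.Fi23Recog54.Hom

/-!
Automorphism groups of groups of large Fischer type: the map of the presented Fi24 given by the
lifts of the letters of Fi23, the involution `d`, and a member `J` moving `d`.
-/

set_option autoImplicit false
set_option maxRecDepth 20000

namespace CfsgLib.AutLf48

open Cfsg CfsgLib.CosetEnum CfsgLib.CosetEnum.Fi24
open CfsgLib.CosetEnum.Fi24.Tab (npts runL lab)
open CfsgLib.Fi23Type67 (D23)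

universe w

/-- The relators of Fi24 other than the long one are words avoiding `k` or Coxeter relators at `k`. -/
theorem relW_cases : relW.all (fun r => decide (r = cW) || decide (r = cW.reverse) ||
    r.all (fun x => Nat.blt x 11) || decide (r = [11, 11]) ||
    (List.range 11).any fun x =>
      (decide (1 ≤ x ∧ x ≤ 9) && (decide (r = [11, x, 11, x]) || decide (r = [x, 11, x, 11]))) ||
      (decide (x = 0 ∨ x = 10) &&
        (decide (r = [11, x, 11, x, 11, x]) || decide (r = [x, 11, x, 11, x, 11])))) = true := by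
  decide +kernel

/-- A commuting partner among the letters `1, ..., 9`. -/
def buddy (x : ℕ) : ℕ := if x = 1 then 3 else if x = 2 then 4 else 1

theorem buddy_facts : L9.all (fun x => L9.contains (buddy x) && !Nat.beq (buddy x) x &&
    relW.contains [x, buddy x, x, buddy x] &&
    inMg (wlW.reverse ++ ([x, buddy x] ++ wlW))) = true := by
  decide +kernel

theorem wl_moves : L9.any (fun x =>
    !Nat.beq (lab (runL (wlW ++ ([x] ++ wlW.reverse)) 6)) 5) = true := by
  decide +kernel

theorem lab_six : lab 6 = 5 := by decide +kernel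

theorem wlW_small : ∀ x ∈ wlW, x < 11 := by decide +kernel

variable {X : Type w} [Group X] {G₀ : Subgroup X} {z d t u v : X}

/-- The powers of `d`, by parity. -/
noncomputable def Cfg.dPow (C : Cfg G₀ z d t u v) : ℤˣ →* X where
  toFun a := if a = 1 then 1 else d
  map_one' := if_pos rfl
  map_mul' a b := by
    rcases Int.units_eq_one_or a with rfl | rfl <;> rcases Int.units_eq_one_or b with rfl | rfl <;>
      simp [C.d_sq]

theorem Cfg.dPow_neg (C : Cfg G₀ z d t u v) : C.dPow (-1) = d := by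
  show (if (-1 : ℤˣ) = 1 then 1 else d) = d
  exact if_neg (by decide)

theorem Cfg.commute_Y (C : Cfg G₀ z d t u v)
    (y : ↥(G₀ ⊓ Subgroup.centralizer ({d} : Set X))) : Commute (y : X) d :=
  Subgroup.mem_centralizer_singleton_iff.1 y.2.2

/-- The map of the subgroup of all letters but `k` onto the centralizer of `d`. -/
noncomputable def Cfg.rho (C : Cfg G₀ z d t u v) : Hs →* X where
  toFun a := (C.e.symm (Fi24Type67.proj checksOK a) : X) * C.dPow (parity (a : Spor.Fi24))
  map_one' := by simp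
  map_mul' a b := by
    simp only [map_mul, Subgroup.coe_mul]
    refine Commute.mul_mul_mul_comm ?_ _ _
    rcases Int.units_eq_one_or (parity (a : Spor.Fi24)) with e | e <;> rw [e]
    · rw [map_one]; exact Commute.one_right _
    · rw [C.dPow_neg]; exact C.commute_Y _

theorem Cfg.commute_rho (C : Cfg G₀ z d t u v) (a : Hs) : Commute (C.rho a) d := by
  refine Commute.mul_left (C.commute_Y _) ?_
  rcases Int.units_eq_one_or (parity (a : Spor.Fi24)) with e | e <;> rw [e]
  · rw [map_one]; exact Commute.one_left _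
  · rw [C.dPow_neg]; exact Commute.refl d

/-- The lift of a letter of Fi23. -/
noncomputable def Cfg.lift (C : Cfg G₀ z d t u v) (x : ℕ) : X :=
  d * (C.e.symm (Fi23.g10 x) : X)

/-- The images of the twelve letters. -/
noncomputable def Cfg.img (C : Cfg G₀ z d t u v) (J : X) (x : ℕ) : X :=
  if x < 10 then C.lift x else if x = 10 then d else if x = 11 then J else 1

theorem Cfg.rho_letter (C : Cfg G₀ z d t u v) {x : ℕ} (hx : x < 10) :
    C.rho ⟨g12 x, g12_mem_Hs (Nat.lt_succ_of_lt hx)⟩ = C.lift x := by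
  show (C.e.symm (Fi24Type67.proj checksOK _) : X) * C.dPow (parity (g12 x)) = _
  rw [Fi24Type67.proj_eq checksOK (u := Fi23.g10 x) (Or.inr (by
      show g12 x = _
      rw [psi_gen hx, psiVal, mul_assoc, g12_sq, mul_one])),
    parity_g12 (by omega), C.dPow_neg]
  exact C.commute_Y _

theorem Cfg.rho_l (C : Cfg G₀ z d t u v) : C.rho ⟨g12 10, g12_mem_Hs (by norm_num)⟩ = d := by
  show (C.e.symm (Fi24Type67.proj checksOK _) : X) * C.dPow (parity (g12 10)) = _
  rw [Fi24Type67.proj_eq checksOK (u := 1) Fi24Type67.rel_l, parity_g12 (by norm_num),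
    C.dPow_neg, map_one, OneMemClass.coe_one, one_mul]

theorem Cfg.rho_g12 (C : Cfg G₀ z d t u v) (J : X) {x : ℕ} (hx : x < 11) :
    C.rho ⟨g12 x, g12_mem_Hs hx⟩ = C.img J x := by
  by_cases h : x < 10
  · rw [Cfg.img, if_pos h]
    exact C.rho_letter h
  · obtain rfl : x = 10 := by omega
    rw [Cfg.img, if_neg h, if_pos rfl]
    exact C.rho_l

theorem Cfg.rho_word (C : Cfg G₀ z d t u v) (J : X) : ∀ {r : List ℕ} (hr : ∀ x ∈ r, x < 11),
    C.rho ⟨gword g12 r, gword_mem_Hs hr⟩ = gword (C.img J) r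
  | [], _ => map_one C.rho
  | x :: r, hr => by
    rw [gword_cons (C.img J), ← C.rho_g12 J (hr x List.mem_cons_self),
      ← C.rho_word J (r := r) fun y hy => hr y (List.mem_cons_of_mem _ hy), ← map_mul]
    exact congrArg C.rho (Subtype.ext (gword_cons g12 x r))

theorem Cfg.isConj_lift (C : Cfg G₀ z d t u v) {x : ℕ} (hx : x < 10) : IsConj d (C.lift x) := by
  refine C.ndc _ ?_
  rw [MulEquiv.apply_symm_apply, Fi23.g10, letterVal_lt Fi23.gen hx]
  exact Fi23Recog54.gen23_class hx

theorem sq_of_isConj {a b : X} (ha : a * a = 1) (h : IsConj a b) : b * b = 1 := by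
  obtain ⟨g, rfl⟩ := isConj_iff.1 h
  rw [conj_mul, ha, mul_one, mul_inv_cancel]

theorem Cfg.lift_commute_d (C : Cfg G₀ z d t u v) {x : ℕ} (hx : x < 10) :
    Commute (C.lift x) d :=
  C.rho_letter hx ▸ C.commute_rho _

theorem Cfg.img_inv (C : Cfg G₀ z d t u v) {J : X} (hJ : IsConj d J) (x : ℕ) :
    C.img J x = (C.img J x)⁻¹ := by
  unfold Cfg.img
  split_ifs with h1 h2 h3
  · exact (inv_eq_of_mul_eq_one_right (sq_of_isConj C.d_sq (C.isConj_lift h1))).symm
  · exact (inv_eq_of_mul_eq_one_right C.d_sq).symm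
  · exact (inv_eq_of_mul_eq_one_right (sq_of_isConj C.d_sq hJ)).symm
  · exact inv_one.symm

theorem Cfg.lift_ne (C : Cfg G₀ z d t u v) {x y : ℕ} (hx : x < 10) (hy : y < 10) (h : x ≠ y) :
    C.lift x ≠ C.lift y := fun e => by
  have e' : Fi23.g10 x = Fi23.g10 y := C.e.symm.injective (Subtype.ext (mul_left_cancel e))
  rw [Fi23.g10, letterVal_lt Fi23.gen hx, letterVal_lt Fi23.gen hy] at e'
  exact h (Fi23Recog54.gen23_inj hx hy e')

/-- An element centralizing the pair `l, k` in the model fixes `J`. -/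
theorem Cfg.wl_commute (C : Cfg G₀ z d t u v) {J : X} (hJ : IsConj d J) (hdJ : ¬ Commute J d)
    (hJs : ∀ x, 1 ≤ x → x < 10 → Commute J (C.lift x))
    (hsplit : ∀ a b j : X, IsConj d a → IsConj d b → IsConj d j → a ≠ b → Commute a b →
      Commute j (a * b) → Commute j a ∧ Commute j b)
    (huniq : ∀ J' : X, IsConj d J' → ¬ Commute J' d →
      (∀ x, 1 ≤ x → x < 10 → Commute J' (C.lift x)) → J' = J ∨ J' = d * J * d⁻¹) :
    Commute (gword (C.img J) wlW) J := by
  have hwH : gword g12 wlW ∈ Hs := gword_mem_Hs wlW_small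
  rw [← C.rho_word J wlW_small]
  set W := C.rho ⟨gword g12 wlW, hwH⟩ with hW
  set K : Subgroup Spor.Fi24 :=
    ((Subgroup.centralizer ({J} : Set X)).comap C.rho).map Hs.subtype with hK
  have hMg : Mg ≤ K := by
    rw [Mg, lsub, Subgroup.closure_le]
    rintro _ ⟨x, hx, rfl⟩
    obtain ⟨h1, h10⟩ := mem_L9.1 hx
    refine ⟨⟨g12 x, g12_mem_Hs (by omega)⟩, ?_, rfl⟩
    show C.rho _ ∈ Subgroup.centralizer ({J} : Set X)
    rw [C.rho_letter h10]
    exact Subgroup.mem_centralizer_singleton_iff.2 (hJs x h1 h10).symm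
  have hMgJ : ∀ m (hm : m ∈ Mg), Commute (C.rho ⟨m, Mg_le hm⟩) J := by
    intro m hm
    obtain ⟨a, ha, e⟩ := hMg hm
    rw [show (⟨m, Mg_le hm⟩ : Hs) = a from Subtype.ext e.symm]
    exact Subgroup.mem_centralizer_singleton_iff.1 ha
  have hWd : Commute W d := C.commute_rho _
  have hJ' : IsConj d (W * J * W⁻¹) := hJ.trans (isConj_iff.2 ⟨W, rfl⟩)
  have hdJ' : ¬ Commute (W * J * W⁻¹) d := fun hc => hdJ (by
    have e : d = W * d * W⁻¹ := by rw [hWd.eq, mul_inv_cancel_right]
    rw [e] at hc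
    simpa [mul_assoc] using hc.map (MulAut.conj W⁻¹))
  have hcomm : ∀ x, 1 ≤ x → x < 10 → Commute (W * J * W⁻¹) (C.lift x) := by
    intro x h1 h10
    have hb := List.all_eq_true.1 buddy_facts x (mem_L9.2 ⟨h1, h10⟩)
    simp only [Bool.and_eq_true, List.contains_iff_mem, Bool.not_eq_true'] at hb
    obtain ⟨⟨⟨hy, hne⟩, hr⟩, hin⟩ := hb
    set y := buddy x
    obtain ⟨-, hy10⟩ := mem_L9.1 hy
    have hne' : y ≠ x := fun e => by simp [e] at hne
    simp only [inMg, Bool.and_eq_true, Nat.beq_eq, List.all_eq_true, Nat.blt, Nat.ble_eq] at hin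
    obtain ⟨⟨hs, hp1⟩, hp5⟩ := hin
    have hm : gword g12 (wlW.reverse ++ ([x, y] ++ wlW)) ∈ Mg :=
      mem_Mg checksOK (gword_mem_Hs fun a ha => hs a ha)
        (Fin.ext (by rw [act_val]; exact hp1)) (by rw [act_val]; exact hp5)
    rw [wapp, wapp, wrev g12_inv, gword_cons, wone] at hm
    have hc := hMgJ _ hm
    have e : (⟨_, Mg_le hm⟩ : Hs) = (⟨gword g12 wlW, hwH⟩ : Hs)⁻¹ *
        (⟨g12 x, g12_mem_Hs (by omega)⟩ * ⟨g12 y, g12_mem_Hs (by omega)⟩) *
          ⟨gword g12 wlW, hwH⟩ := Subtype.ext (by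
      simp only [Subgroup.coe_mul, Subgroup.coe_inv, mul_assoc])
    rw [e, map_mul, map_mul, map_mul, map_inv, C.rho_letter h10, C.rho_letter hy10, ← hW] at hc
    have hc' := (hc.map (MulAut.conj W).toMonoidHom).symm
    simp only [MulEquiv.coe_toMonoidHom, MulAut.conj_apply] at hc'
    rw [show W * (W⁻¹ * (C.lift x * C.lift y) * W) * W⁻¹ = C.lift x * C.lift y by group] at hc'
    have hxy : Commute (C.lift x) (C.lift y) := by
      rw [← C.rho_letter h10, ← C.rho_letter hy10]
      exact Commute.map (show Commute (⟨g12 x, g12_mem_Hs (Nat.lt_succ_of_lt h10)⟩ : Hs)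
        ⟨g12 y, g12_mem_Hs (Nat.lt_succ_of_lt hy10)⟩ from
          Subtype.ext (comm_letters (List.contains_iff_mem.2 hr))) C.rho
    exact (hsplit _ _ _ (C.isConj_lift h10) (C.isConj_lift hy10) hJ'
      (C.lift_ne h10 hy10 hne'.symm) hxy hc').1
  rcases huniq _ hJ' hdJ' hcomm with e | e
  · exact mul_inv_eq_iff_eq_mul.1 e
  have hV : Commute (d⁻¹ * W) J := by
    have e1 : W * J * W⁻¹ = d * J * d⁻¹ := e
    have e2 : d⁻¹ * W * J = J * (d⁻¹ * W) := by
      calc d⁻¹ * W * J = d⁻¹ * (W * J * W⁻¹) * W := by group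
        _ = J * (d⁻¹ * W) := by rw [e1]; group
    exact e2
  obtain ⟨x, hx, hne⟩ := List.any_eq_true.1 wl_moves
  obtain ⟨h1, h10⟩ := mem_L9.1 hx
  have hcmem : gword g12 (wlW ++ ([x] ++ wlW.reverse)) ∈ SP checksOK := by
    rw [wapp, wapp, wrev g12_inv, wone]
    exact mul_mem (wlW_mem checksOK) (mul_mem
      (Mg_le_SP checksOK (Subgroup.subset_closure ⟨x, hx, rfl⟩)) (inv_mem (wlW_mem checksOK)))
  have hcJ : Commute (C.rho ⟨_, hcmem.1⟩) J := by
    have e3 : (⟨_, hcmem.1⟩ : Hs) = ⟨gword g12 wlW, hwH⟩ *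
        ⟨g12 x, g12_mem_Hs (by omega)⟩ * (⟨gword g12 wlW, hwH⟩ : Hs)⁻¹ :=
      Subtype.ext (by
        show gword g12 (wlW ++ ([x] ++ wlW.reverse)) = gword g12 wlW * g12 x * (gword g12 wlW)⁻¹
        rw [wapp, wapp, wrev g12_inv, wone, mul_assoc])
    rw [e3, map_mul, map_mul, map_inv, C.rho_letter h10, ← hW,
      show W * C.lift x * W⁻¹ = d⁻¹ * W * C.lift x * (d⁻¹ * W)⁻¹ by
        have hd : Commute d⁻¹ (W * C.lift x * W⁻¹) :=
          ((hWd.mul_left (C.lift_commute_d h10)).mul_left hWd.inv_left).symm.inv_left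
        rw [show d⁻¹ * W * C.lift x * (d⁻¹ * W)⁻¹ = d⁻¹ * (W * C.lift x * W⁻¹) * d by group,
          hd.eq, inv_mul_cancel_right]]
    exact (hV.mul_left (hJs x h1 h10).symm).mul_left hV.inv_left
  rcases SP_cases checksOK hcmem with hm | ⟨m, hm, m', hm', e4⟩
  · have e5 := lab_of_Mg checksOK hm (pt 6)
    rw [act_val, show ((pt 6 : Fin npts) : ℕ) = 6 from rfl, lab_six] at e5
    rw [e5] at hne
    simp at hne
  · have e6 : (⟨_, hcmem.1⟩ : Hs) = ⟨m, Mg_le hm⟩ * ⟨gword g12 wlW, hwH⟩ * ⟨m', Mg_le hm'⟩ :=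
      Subtype.ext e4
    rw [e6, map_mul, map_mul, ← hW] at hcJ
    have h7 := ((hMgJ m hm).inv_left.mul_left hcJ).mul_left (hMgJ m' hm').inv_left
    rwa [show (C.rho ⟨m, Mg_le hm⟩)⁻¹ * (C.rho ⟨m, Mg_le hm⟩ * W * C.rho ⟨m', Mg_le hm'⟩) *
      (C.rho ⟨m', Mg_le hm'⟩)⁻¹ = W by group] at h7

/-- The relators but the long one hold for the images. -/
theorem Cfg.img_rels (C : Cfg G₀ z d t u v) {J : X} (hJ : IsConj d J)
    (hJd : (J * d) ^ 3 = 1) (hJs : ∀ x, 1 ≤ x → x < 10 → Commute J (C.lift x))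
    (hJ0 : (J * C.lift 0) ^ 3 = 1) :
    ∀ r ∈ relW, r ≠ cW → r ≠ cW.reverse → gword (C.img J) r = 1 := by
  intro r hr h1 h2
  have hc := List.all_eq_true.1 relW_cases r hr
  simp only [Bool.or_eq_true, decide_eq_true_eq, List.any_eq_true, Bool.and_eq_true,
    List.mem_range, List.all_eq_true, Nat.blt, Nat.ble_eq] at hc
  have hJJ : J * J = 1 := sq_of_isConj C.d_sq hJ
  have hi11 : C.img J 11 = J := by simp [Cfg.img]
  rcases hc with (((h | h) | h) | h) | ⟨x, hx, h⟩
  · exact absurd h h1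
  · exact absurd h h2
  · rw [← C.rho_word J (r := r) h,
      show (⟨gword g12 r, gword_mem_Hs h⟩ : Hs) = 1 from Subtype.ext (gword_relW r hr), map_one]
  · subst h
    simp [gword_cons, gword_nil, hi11, hJJ]
  · rcases h with ⟨⟨hx1, hx9⟩, hw⟩ | ⟨hx0, hw⟩
    · have hix : C.img J x = C.lift x := by simp [Cfg.img, show x < 10 by omega]
      have hsq := sq_of_isConj C.d_sq (C.isConj_lift (show x < 10 by omega))
      have hcx := hJs x hx1 (by omega)
      have key : J * C.lift x * (J * C.lift x) = 1 := by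
        rw [hcx.symm.mul_mul_mul_comm, hJJ, hsq, one_mul]
      rcases hw with rfl | rfl
      · simp only [gword_cons, gword_nil, hi11, hix, mul_one]
        rw [← mul_assoc, key]
      · simp only [gword_cons, gword_nil, hi11, hix, mul_one]
        rw [← mul_assoc, ← hcx.eq, key]
    · have hix : ∃ a, C.img J x = a ∧ a * a = 1 ∧ (J * a) ^ 3 = 1 := by
        rcases hx0 with rfl | rfl
        · exact ⟨C.lift 0, by simp [Cfg.img], sq_of_isConj C.d_sq (C.isConj_lift (by norm_num)),
            hJ0⟩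
        · exact ⟨d, by simp [Cfg.img], C.d_sq, hJd⟩
      obtain ⟨a, ha, haa, h3⟩ := hix
      have h3' : (a * J) ^ 3 = 1 := by
        have e : a * J = a * (J * a) * a⁻¹ := by group
        rw [e, conj_pow, h3, mul_one, mul_inv_cancel]
      rcases hw with rfl | rfl
      · simp only [gword_cons, gword_nil, hi11, ha, mul_one]
        simpa [pow_succ, mul_assoc] using h3
      · simp only [gword_cons, gword_nil, hi11, ha, mul_one]
        simpa [pow_succ, mul_assoc] using h3'

/-- The map of the presented group. -/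
theorem Cfg.exists_hom_of (C : Cfg G₀ z d t u v) {J : X} (hJ : IsConj d J)
    (hrel : ∀ r ∈ relW, gword (C.img J) r = 1) :
    ∃ φ : Spor.Fi24 →* X, Function.Injective φ ∧ φ (g12 10) = d ∧
      Subgroup.centralizer ({d} : Set X) ≤ φ.range := by
  have hrels : ∀ r ∈ Spor.coxRelators Spor.Fi24.edges ∪ {r | r ∈ Spor.Fi24.extra},
      FreeGroup.lift (fun a => C.img J (Fi24.enc a)) r = 1 := by
    intro r hr
    rw [rels_eq] at hr
    rw [map_eq_gword Fi24.enc (fun y => y) (FreeGroup.lift fun a => C.img J (Fi24.enc a)) (C.img J)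
      (fun a => FreeGroup.lift_apply_of)
      (fun a => by rw [FreeGroup.lift_apply_of]; exact (C.img_inv hJ _).symm) r]
    exact hrel _ (List.mem_map.2 ⟨r, hr, rfl⟩)
  obtain ⟨φ, hφ⟩ : ∃ φ : Spor.Fi24 →* X, φ = PresentedGroup.toGroup hrels := ⟨_, rfl⟩
  have hφg : ∀ x < 12, φ (g12 x) = C.img J x := fun x hx => by
    rw [hφ, g12, letterVal_lt gen hx, gen, PresentedGroup.toGroup.of]
    interval_cases x <;> rfl
  have hφH : ∀ a : Hs, φ (a : Spor.Fi24) = C.rho a := by
    rintro ⟨a, ha⟩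
    induction ha using Subgroup.closure_induction with
    | mem b hb =>
      obtain ⟨x, hx, rfl⟩ := hb
      show φ (g12 x) = _
      rw [hφg x (by omega), ← C.rho_g12 J hx]
    | one =>
      show φ 1 = _
      rw [map_one]
      exact (map_one C.rho).symm
    | mul b c hb hc ihb ihc =>
      show φ (b * c) = _
      simp only at ihb ihc
      rw [map_mul, ihb, ihc, ← map_mul]
      rfl
    | inv b hb ihb =>
      show φ b⁻¹ = _
      simp only at ihb
      rw [map_inv, ihb, ← map_inv]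
      rfl
  have hφY : ∀ y, φ (Fi24.psi y) = (C.e.symm y : X) := fun y => by
    have := hφH ⟨Fi24.psi y, psi_mem_Hs y⟩
    rw [this]
    show (C.e.symm (Fi24Type67.proj checksOK _) : X) * C.dPow (parity (Fi24.psi y)) = _
    rw [Fi24Type67.proj_eq checksOK (u := y) (Or.inl rfl), parity_psi, map_one, mul_one]
  refine ⟨φ, ?_, (hφg 10 (by norm_num)).trans (by simp [Cfg.img]), fun c hc => ?_⟩
  · rw [← MonoidHom.ker_eq_bot_iff]
    have hsim := simple_commutator checksOK
    rcases (φ.normal_ker.subgroupOf (commutator Spor.Fi24)).eq_bot_or_eq_top with h0 | h0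
    · rw [← le_bot_iff, ← Fi24Type67.center24 checksOK]
      intro a ha
      have hdis : ∀ g ∈ commutator Spor.Fi24, g ∈ φ.ker → g = 1 := fun g hg hk => by
        have h' : (⟨g, hg⟩ : commutator Spor.Fi24) ∈ φ.ker.subgroupOf (commutator Spor.Fi24) := hk
        rw [h0, Subgroup.mem_bot] at h'
        exact congrArg Subtype.val h'
      refine Subgroup.mem_center_iff.2 fun g => ?_
      have hk : a * g * a⁻¹ * g⁻¹ ∈ φ.ker := by
        rw [MonoidHom.mem_ker] at ha ⊢
        simp [ha]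
      have := hdis _ (Subgroup.commutator_mem_commutator (Subgroup.mem_top a) (Subgroup.mem_top g))
        (by rw [commutatorElement_def]; exact hk)
      exact (commutatorElement_eq_one_iff_mul_comm.1 this).symm
    · exfalso
      have hmem : Fi24.psi (Fi23.g10 0) ∈ commutator Spor.Fi24 := by
        rw [commutator_eq]
        exact parity_psi _
      have hk : (⟨_, hmem⟩ : commutator Spor.Fi24) ∈ φ.ker.subgroupOf _ :=
        h0 ▸ Subgroup.mem_top _
      have e1 : φ (Fi24.psi (Fi23.g10 0)) = 1 := hk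
      rw [hφY, OneMemClass.coe_eq_one, MulEquiv.map_eq_one_iff] at e1
      rw [Fi23.g10, letterVal_lt Fi23.gen (by norm_num)] at e1
      have h22 := Fi23Recog54.gen23_class (show 0 < 10 by norm_num)
      rw [e1] at h22
      obtain ⟨g, hg⟩ := isConj_iff.1 h22
      exact Fi23.z0_ne (conj_eq_one_iff.1 hg)
  · have hcd : Commute c d := Subgroup.mem_centralizer_singleton_iff.1 hc
    by_cases hcG : c ∈ G₀
    · exact ⟨Fi24.psi (C.e ⟨c, hcG, hc⟩), by rw [hφY, C.e.symm_apply_apply]⟩
    · have hdc : d * c ∈ G₀ := by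
        refine (Subgroup.mul_mem_iff_of_index_two C.idx).2 ?_
        exact iff_of_false C.d_out hcG
      have hdc' : d * c ∈ Subgroup.centralizer ({d} : Set X) :=
        Subgroup.mem_centralizer_singleton_iff.2 ((Commute.refl d).mul_left hcd).eq
      refine ⟨g12 10 * Fi24.psi (C.e ⟨d * c, hdc, hdc'⟩), ?_⟩
      rw [map_mul, hφY, C.e.symm_apply_apply, hφg 10 (by norm_num)]
      show C.img J 10 * (d * c) = c
      rw [show C.img J 10 = d by simp [Cfg.img], ← mul_assoc, C.d_sq, one_mul]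

end CfsgLib.AutLf48
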