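import Cfsg.Agent.AutLf48.Core
import Cfsg.Agent.AutLf48.Defs
import Cfsg.Agent.ThreeTransp.M23Inv
import Cfsg.Agent.ThreeTransp.M23Primitive
import Cfsg.Agent.ThreeTransp.M23Unique43
import Cfsg.Agent.Fi23Type67.Main

/-!
Automorphism groups of groups of large Fischer type: with `G₀ ∩ C(d)` of type M(23), the conjugates
of `d` commuting with `d` are `d` and the products of `d` with members, and this gives a
configuration.
-/

set_option autoImplicit false

namespace CfsgLib.AutLf48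

open Cfsg CfsgLib.ThreeTransp

universe w

variable {X : Type w} [Group X] {G₀ : Subgroup X} {z d t u v : X}

namespace Core

variable (C : Core G₀ z d t u v)
include C

theorem normal_G₀ : G₀.Normal := Subgroup.normal_of_index_eq_two C.idx

theorem mem_G₀_of_Q {q : X} (hq : q ∈ C.Q) : q ∈ G₀ :=
  (Subgroup.mem_inf.1 (C.Q_le hq)).1

theorem s_mem' : C.s ∈ G₀ ⊓ Subgroup.centralizer ({d} : Set X) :=
  Subgroup.mem_inf.2 ⟨(Subgroup.mem_inf.1 C.s_mem).1,
    Subgroup.mem_centralizer_singleton_iff.2 C.s_d.eq⟩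

theorem s_z : Commute C.s z :=
  Subgroup.mem_centralizer_singleton_iff.1 (Subgroup.mem_inf.1 C.s_mem).2

theorem u_sq : u * u = 1 := by
  rw [← C.s_t, conj_mul, C.t_sq, mul_one, mul_inv_cancel]

theorem v_sq : v * v = 1 := by
  rw [← C.s_u, conj_mul, C.u_sq, mul_one, mul_inv_cancel]

theorem z_sq : z * z = 1 := by
  rw [← pow_two, ← C.z_order, pow_orderOf_eq_one]

theorem d_t : Commute d t :=
  (Subgroup.mem_centralizer_singleton_iff.1 (Subgroup.mem_inf.1 C.t_mem).2).symm

theorem cent_u {g : X} (hg : Commute g u) : g * d * g⁻¹ = d ∨ g * d * g⁻¹ = d * u := by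
  have hs : C.s * d * C.s⁻¹ = d := by rw [C.s_d.eq, mul_inv_cancel_right]
  have h : Commute (C.s⁻¹ * g * C.s) t := by
    have hu : g * (C.s * t * C.s⁻¹) = C.s * t * C.s⁻¹ * g := by rw [C.s_t]; exact hg.eq
    show C.s⁻¹ * g * C.s * t = t * (C.s⁻¹ * g * C.s)
    calc C.s⁻¹ * g * C.s * t = C.s⁻¹ * (g * (C.s * t * C.s⁻¹)) * C.s := by group
      _ = C.s⁻¹ * (C.s * t * C.s⁻¹ * g) * C.s := by rw [hu]
      _ = _ := by group
  have e : g * d * g⁻¹ = C.s * (C.s⁻¹ * g * C.s * d * (C.s⁻¹ * g * C.s)⁻¹) * C.s⁻¹ := by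
    conv_lhs => rw [← hs]
    group
  rcases C.cent_t _ h with h' | h'
  · exact Or.inl (by rw [e, h', hs])
  · refine Or.inr ?_
    rw [e, h', ← conj_mul, hs, C.s_t]

theorem t_ne_one : t ≠ 1 := by
  intro ht
  have h : C.s * t * C.s⁻¹ = 1 := conj_eq_one_iff.2 ht
  exact C.tu.1 (ht.trans (h.symm.trans C.s_t))

theorem u_ne_one : u ≠ 1 := fun hu => C.t_ne_one (conj_eq_one_iff.1 (C.s_t.trans hu))

theorem v_ne_one : v ≠ 1 := fun hv => C.u_ne_one (conj_eq_one_iff.1 (C.s_u.trans hv))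

/-- `t * z = u * v`. -/
theorem t_mul_z : t * z = u * v := by
  rw [← C.prod, ← mul_assoc, ← mul_assoc, C.t_sq, one_mul]

theorem u_mul_z : u * z = t * v := by
  rw [← C.prod, ← mul_assoc, ← mul_assoc, ← C.tu.2.eq, mul_assoc t u u, C.u_sq, mul_one]

theorem v_mul_z : v * z = t * u := by
  rw [← C.prod, ← mul_assoc, (C.tv.2.mul_left C.uv.2).symm.eq, mul_assoc _ v v, C.v_sq, mul_one]

end Core

theorem mul_of_inv_sq {a : X} (h : a * a = 1) : a⁻¹ = a := inv_eq_of_mul_eq_one_right h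

/-- In a class with no relation of length three, a member is not a product of two others. -/
theorem member_ne_mul {Y : Type*} [Group Y] {D : Set Y} (hD : IsThreeTranspositionSet D)
    (hn : NoRel D 3) {a b x : Y} (ha : a ∈ D) (hb : b ∈ D) (hab : a ≠ b) (hc : Commute a b)
    (hx : x ∈ D) : x ≠ a * b := by
  intro h
  have hsq : ∀ y ∈ D, y * y = 1 := fun y hy => by rw [← pow_two, ← hD.1 y hy, pow_orderOf_eq_one]
  have hne : ∀ y ∈ D, y ≠ 1 := fun y hy e => by
    have := hD.1 y hy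
    rw [e, orderOf_one] at this
    norm_num at this
  have hax : a ≠ x := fun e => hne b hb (mul_left_cancel (by rw [mul_one, ← h, e]) : b = 1)
  have hbx : b ≠ x := fun e => hne a ha (mul_right_cancel (by rw [one_mul, ← h, e]) : a = 1)
  have cax : Commute a x := by rw [h]; exact (Commute.refl a).mul_right hc
  have cbx : Commute b x := by rw [h]; exact hc.symm.mul_right (Commute.refl b)
  refine hn [a, b, x] (by simp [hab, hax, hbx]) rfl (by simp [ha, hb, hx]) ?_ ?_
  · simp [hc, hc.symm, cax, cax.symm, cbx, cbx.symm, Commute.refl]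
  · simp only [List.prod_cons, List.prod_nil, mul_one]
    rw [← mul_assoc, ← h, hsq x hx]

/-- The elements of the group generated by three commuting involutions. -/
theorem closure_three {a b c : X} (ha : a * a = 1) (hb : b * b = 1) (hc : c * c = 1)
    (hab : Commute a b) (hac : Commute a c) (hbc : Commute b c) {x : X}
    (hx : x ∈ Subgroup.closure ({a, b, c} : Set X)) :
    x ∈ [1, a, b, c, a * b, a * c, b * c, a * b * c] := by
  have key : ∀ i j k : ℕ, a ^ i * b ^ j * c ^ k ∈ [1, a, b, c, a * b, a * c, b * c, a * b * c] := by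
    have hp : ∀ (y : X), y * y = 1 → ∀ i : ℕ, y ^ i = 1 ∨ y ^ i = y := by
      intro y hy i
      induction i with
      | zero => exact Or.inl (pow_zero y)
      | succ i ih =>
        rcases ih with h | h <;> rw [pow_succ, h]
        · exact Or.inr (one_mul y)
        · exact Or.inl hy
    intro i j k
    rcases hp a ha i with h | h <;> rcases hp b hb j with h' | h' <;>
      rcases hp c hc k with h'' | h'' <;> rw [h, h', h''] <;> simp
  suffices ∃ i j k : ℕ, x = a ^ i * b ^ j * c ^ k by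
    obtain ⟨i, j, k, rfl⟩ := this
    exact key i j k
  induction hx using Subgroup.closure_induction with
  | mem y hy =>
    rcases hy with rfl | rfl | rfl
    · exact ⟨1, 0, 0, by simp⟩
    · exact ⟨0, 1, 0, by simp⟩
    · exact ⟨0, 0, 1, by simp⟩
  | one => exact ⟨0, 0, 0, by simp⟩
  | mul y y' _ _ hy hy' =>
    obtain ⟨i, j, k, rfl⟩ := hy
    obtain ⟨i', j', k', rfl⟩ := hy'
    refine ⟨i + i', j + j', k + k', ?_⟩
    rw [pow_add, pow_add, pow_add]
    have e1 : Commute (c ^ k) (a ^ i') := (hac.symm.pow_left k).pow_right i'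
    have e2 : Commute (b ^ j) (a ^ i') := (hab.symm.pow_left j).pow_right i'
    have e3 : Commute (c ^ k) (b ^ j') := (hbc.symm.pow_left k).pow_right j'
    calc a ^ i * b ^ j * c ^ k * (a ^ i' * b ^ j' * c ^ k')
        = a ^ i * (b ^ j * (c ^ k * a ^ i')) * b ^ j' * c ^ k' := by simp only [mul_assoc]
      _ = a ^ i * ((b ^ j * a ^ i') * c ^ k) * b ^ j' * c ^ k' := by rw [e1.eq]; simp only [mul_assoc]
      _ = a ^ i * a ^ i' * b ^ j * (c ^ k * b ^ j') * c ^ k' := by rw [e2.eq]; simp only [mul_assoc]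
      _ = _ := by rw [e3.eq]; simp only [mul_assoc]
  | inv y _ hy =>
    obtain ⟨i, j, k, rfl⟩ := hy
    refine ⟨i, j, k, ?_⟩
    have e1 : Commute (c ^ k) (a ^ i) := (hac.symm.pow_left k).pow_right i
    have e2 : Commute (b ^ j) (a ^ i) := (hab.symm.pow_left j).pow_right i
    have e3 : Commute (c ^ k) (b ^ j) := (hbc.symm.pow_left k).pow_right j
    rw [mul_inv_rev, mul_inv_rev, ← inv_pow, ← inv_pow, ← inv_pow, mul_of_inv_sq ha,
      mul_of_inv_sq hb, mul_of_inv_sq hc, ← mul_assoc, e3.eq, mul_assoc, e1.eq, ← mul_assoc, e2.eq]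

namespace Core

variable (C : Core G₀ z d t u v)
include C

/-- The conjugates of `d` under `Q` are `d, d t, d u, d v`. -/
theorem orbit
    (hpair : ∀ g ∈ G₀, Commute g d → g * u * g⁻¹ ≠ t * v) {q : X} (hq : q ∈ C.Q) :
    q * d * q⁻¹ ∈ [d, d * t, d * u, d * v] := by
  obtain ⟨a, ha, b, hb, hat, hbu, rfl⟩ := C.Q_gen q hq
  rw [show a * b * d * (a * b)⁻¹ = a * (b * d * b⁻¹) * a⁻¹ by group]
  have hauu : a * u * a⁻¹ = u ∨ a * u * a⁻¹ = u * z := by
    have huz : Commute u z := by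
      rw [← C.prod]
      exact (C.tu.2.symm.mul_right (Commute.refl u)).mul_right C.uv.2
    rcases C.Q_comm a ha u C.u_Q with h | h
    · exact Or.inl (mul_inv_eq_one.1 h)
    · exact Or.inr ((mul_inv_eq_iff_eq_mul.1 h).trans huz.symm.eq)
  rcases C.cent_t a hat with ha' | ha' <;> rcases C.cent_u hbu with hb' | hb' <;> rw [hb']
  · simp [ha']
  · rw [← conj_mul, ha']
    rcases hauu with h | h <;> rw [h]
    · simp
    · exact absurd (h.trans C.u_mul_z)
        (hpair a (C.mem_G₀_of_Q ha) (mul_inv_eq_iff_eq_mul.1 ha'))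
  · simp [ha']
  · rw [← conj_mul, ha']
    rcases hauu with h | h <;> rw [h]
    · rcases C.cent_u (mul_inv_eq_iff_eq_mul.1 h) with e | e
      · rw [ha'] at e
        exact absurd (by simpa using e) C.t_ne_one
      · rw [ha'] at e
        exact absurd (mul_left_cancel e) C.tu.1
    · rw [C.u_mul_z, mul_assoc, ← mul_assoc t t v, C.t_sq, one_mul]
      simp

/-- Main exclusion: no element of `G₀` centralizing `z` maps `d` to `d * z`. -/
theorem no_dz
    (hu1 : ∀ g ∈ G₀, Commute g d → g * t * g⁻¹ ≠ u * v)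
    (hpair : ∀ g ∈ G₀, Commute g d → g * u * g⁻¹ ≠ t * v)
    {g : X} (hg : g ∈ G₀) (hgz : Commute g z) (hgd : g * d * g⁻¹ = d * z) : False := by
  have hz1 : z ≠ 1 := fun e => by
    have := C.z_order
    rw [e, orderOf_one] at this
    norm_num at this
  have hzt : z ≠ t := fun e => C.not_conj 1 G₀.one_mem (by rw [one_mul, inv_one, mul_one, e])
  have hgn : ∀ x ∈ C.Q, g * x * g⁻¹ ∈ C.Q := fun x hx => by
    have h := C.Q_normal (Subgroup.mem_centralizer_singleton_iff.2 hgz.eq)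
    exact (Subgroup.mem_normalizer_iff.1 h x).1 hx
  have hgn' : ∀ x ∈ C.Q, g⁻¹ * x * g ∈ C.Q := fun x hx => by
    have h := C.Q_normal (inv_mem (Subgroup.mem_centralizer_singleton_iff.2 hgz.eq))
    simpa using (Subgroup.mem_normalizer_iff.1 h x).1 hx
  -- `t` centralizes `C_Q(d)`
  have htC : ∀ a ∈ C.Q, Commute a d → Commute a t := by
    intro a ha had
    rcases C.Q_comm a ha t C.t_Q with h | h
    · exact mul_inv_eq_iff_eq_mul.1 (mul_inv_eq_one.1 h)
    · refine absurd ?_ (hu1 a (C.mem_G₀_of_Q ha) had)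
      have htz : Commute z t := by
        rw [← C.prod]
        exact ((Commute.refl t).mul_left C.tu.2.symm).mul_left C.tv.2.symm
      rw [mul_inv_eq_iff_eq_mul.1 h, htz.eq, C.t_mul_z]
  obtain ⟨x, hx⟩ : ∃ x, g * t * g⁻¹ = x := ⟨_, rfl⟩
  have hxm : x ∈ Subgroup.closure ({t, u, v} : Set X) := by
    rw [← hx]
    refine C.Q_cc _ (hgn t C.t_Q) fun a ha had => ?_
    have h1 : Commute (g⁻¹ * a * g) d := by
      have hadz : a * (d * z) = d * z * a :=
        (Commute.mul_right had (Subgroup.mem_centralizer_singleton_iff.1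
          (Subgroup.mem_inf.1 (C.Q_le ha)).2)).eq
      rw [← hgd] at hadz
      show g⁻¹ * a * g * d = d * (g⁻¹ * a * g)
      calc g⁻¹ * a * g * d = g⁻¹ * (a * (g * d * g⁻¹)) * g := by group
        _ = g⁻¹ * (g * d * g⁻¹ * a) * g := by rw [hadz]
        _ = _ := by group
    have h2 := htC _ (hgn' a ha) h1
    show g * t * g⁻¹ * a = a * (g * t * g⁻¹)
    calc g * t * g⁻¹ * a = g * (t * (g⁻¹ * a * g)) * g⁻¹ := by group
      _ = g * (g⁻¹ * a * g * t) * g⁻¹ := by rw [h2.eq]
      _ = _ := by group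
  -- conjugating elements commuting with `d` and `z`
  have step : ∀ p : X, p ∈ G₀ → Commute p z → Commute p d →
      p * x * p⁻¹ ≠ t ∧ p * x * p⁻¹ ≠ u * v := by
    intro p hpG hpz hpd
    have hpdz : p * (d * z) * p⁻¹ = d * z := by
      rw [(hpd.mul_right hpz).eq, mul_inv_cancel_right]
    have hcomp : ∀ r : X, (r * p * g) * d * (r * p * g)⁻¹ = r * (d * z) * r⁻¹ := fun r => by
      rw [← hpdz, ← hgd]; group
    have hcomp' : ∀ r : X, (r * p * g) * t * (r * p * g)⁻¹ = r * (p * x * p⁻¹) * r⁻¹ := fun r => by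
      rw [← hx]; group
    constructor
    · intro e
      have hc : Commute (1 * p * g) t := mul_inv_eq_iff_eq_mul.1 (by rw [hcomp', e]; group)
      rcases C.cent_t _ hc with h | h <;> rw [hcomp] at h <;>
        simp only [one_mul, inv_one, mul_one] at h
      · exact hz1 (by simpa using h)
      · exact hzt (mul_left_cancel h)
    · intro e
      obtain ⟨q, hq, hqt⟩ := C.t_z
      have hqz : Commute q z := Subgroup.mem_centralizer_singleton_iff.1
        (Subgroup.mem_inf.1 (C.Q_le hq)).2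
      rw [← C.t_mul_z, ← hqt] at e
      have hc : Commute (q⁻¹ * p * g) t := mul_inv_eq_iff_eq_mul.1 (by rw [hcomp', e]; group)
      have ho := C.orbit hpair (inv_mem hq)
      rw [inv_inv] at ho
      have hcz : q⁻¹ * (d * z) * q = q⁻¹ * d * q * z := by
        rw [show q⁻¹ * (d * z) * q = q⁻¹ * d * (z * q) by group, ← hqz.eq]; group
      have hzz := C.z_sq
      have hts := C.t_sq
      rcases C.cent_t _ hc with h | h <;> rw [hcomp, inv_inv, hcz] at h <;>
        simp only [List.mem_cons, List.not_mem_nil, or_false] at ho <;>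
        rcases ho with ho | ho | ho | ho <;> rw [ho] at h
      · exact hz1 (by simpa using h)
      · rw [mul_assoc, C.t_mul_z] at h
        exact C.uv.1 (mul_eq_one_iff_eq_inv.1 (by simpa using h) |>.trans (mul_of_inv_sq C.v_sq))
      · rw [mul_assoc, C.u_mul_z] at h
        exact C.tv.1 (mul_eq_one_iff_eq_inv.1 (by simpa using h) |>.trans (mul_of_inv_sq C.v_sq))
      · rw [mul_assoc, C.v_mul_z] at h
        exact C.tu.1 (mul_eq_one_iff_eq_inv.1 (by simpa using h) |>.trans (mul_of_inv_sq C.u_sq))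
      · exact hzt (mul_left_cancel h)
      · rw [mul_assoc] at h
        exact hz1 (by simpa using mul_left_cancel h)
      · rw [mul_assoc, C.u_mul_z] at h
        exact C.v_ne_one (by simpa using mul_left_cancel h)
      · rw [mul_assoc, C.v_mul_z] at h
        exact C.u_ne_one (by simpa using mul_left_cancel h)
  have hsd := C.s_d
  have hsG := (Subgroup.mem_inf.1 C.s_mem').1
  have hS : ∀ a : X, C.s * C.s * a * (C.s * C.s)⁻¹ = C.s * (C.s * a * C.s⁻¹) * C.s⁻¹ := fun a => by
    group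
  have huvc := C.uv.2.eq
  have htvc := C.tv.2.eq
  have htuc := C.tu.2.eq
  have h0 := step 1 G₀.one_mem (Commute.one_left z) (Commute.one_left d)
  have h1 := step C.s hsG C.s_z hsd
  have h2 := step (C.s * C.s) (mul_mem hsG hsG) (C.s_z.mul_left C.s_z) (hsd.mul_left hsd)
  simp only [one_mul, inv_one, mul_one] at h0
  rw [hS] at h2
  have hmem := closure_three C.t_sq C.u_sq C.v_sq C.tu.2 C.tv.2 C.uv.2 hxm
  simp only [List.mem_cons, List.not_mem_nil, or_false] at hmem
  rcases hmem with e | e | e | e | e | e | e | e <;> subst e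
  · exact C.t_ne_one (conj_eq_one_iff.1 hx)
  · exact h0.1 rfl
  · exact h2.1 (by rw [C.s_u, C.s_v])
  · exact h1.1 C.s_v
  · exact h1.2 (by rw [← conj_mul, C.s_t, C.s_u])
  · exact h2.2 (by
      rw [show C.s * (t * v) * C.s⁻¹ = u * t by rw [← conj_mul, C.s_t, C.s_v], ← conj_mul, C.s_u, C.s_t]
      exact huvc.symm)
  · exact h0.2 rfl
  · exact C.not_conj g hg (hx.trans C.prod)

end Core

open CosetEnum in
theorem gen_zero_class :
    conjugatesOf (Fi23.gen 0) = CfsgLib.Fi23Type67.D23 := by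
  have h : Fi23.gen 0 ∈ CfsgLib.Fi23Type67.D23 := by
    have := CfsgLib.Fi23Type67.g10_mem_D (x := 0) (by norm_num)
    simpa [Fi23.g10, letterVal] using this
  exact (IsConj.conjugatesOf_eq h).symm

/-- The configuration from the core and the type of the even centralizer. -/
theorem exists_cfg [Finite X] (C : Core G₀ z d t u v)
   
    (tY : ↥(G₀ ⊓ Subgroup.centralizer ({d} : Set X))) (htY : (tY : X) = t)
    (h3 : IsThreeTranspositionClass (conjugatesOf tY))
    (h23 : IsOfTypeM23 ↥(G₀ ⊓ Subgroup.centralizer ({d} : Set X)) (conjugatesOf tY)) :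
    Nonempty (Cfg G₀ z d t u v) := by
  classical
  set D := conjugatesOf tY with hDdef
  have hG : IsThreeTranspositionGroup D := ttg_of_class h3
  have hs : SingleClass D := fun a ha b hb => isConj_iff.1 (IsConj.trans ha.symm hb)
  have hp := m23_primitive hG hs h23
  have hn : NoRel D 3 := m23_noRel_le hG hp h23 (by norm_num) (by norm_num)
  obtain ⟨sY, hsY⟩ : ∃ sY : ↥(G₀ ⊓ Subgroup.centralizer ({d} : Set X)), (sY : X) = C.s :=
    ⟨⟨_, C.s_mem'⟩, rfl⟩
  set uY := sY * tY * sY⁻¹ with huYdef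
  set vY := sY * uY * sY⁻¹ with hvYdef
  have huY : (uY : X) = u := by
    simp only [huYdef, Subgroup.coe_mul, Subgroup.coe_inv, hsY, htY, C.s_t]
  have hvY : (vY : X) = v := by
    simp only [hvYdef, Subgroup.coe_mul, Subgroup.coe_inv, hsY, huY, C.s_u]
  have htD : tY ∈ D := mem_conjugatesOf_self
  have huD : uY ∈ D := hG.2.1 _ _ htD
  have hvD : vY ∈ D := hG.2.1 _ _ huD
  have hneY : tY ≠ uY ∧ tY ≠ vY ∧ uY ≠ vY := ⟨fun h => C.tu.1 (by rw [← htY, h, huY]),
    fun h => C.tv.1 (by rw [← htY, h, hvY]), fun h => C.uv.1 (by rw [← huY, h, hvY])⟩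
  have ctu : Commute tY uY := Subtype.ext (by simp [htY, huY, C.tu.2.eq])
  have ctv : Commute tY vY := Subtype.ext (by simp [htY, hvY, C.tv.2.eq])
  have cuv : Commute uY vY := Subtype.ext (by simp [huY, hvY, C.uv.2.eq])
  have hmemY : ∀ g ∈ G₀, Commute g d →
      ∃ gY : ↥(G₀ ⊓ Subgroup.centralizer ({d} : Set X)), (gY : X) = g := fun g hg hgd =>
    ⟨⟨g, Subgroup.mem_inf.2 ⟨hg, Subgroup.mem_centralizer_singleton_iff.2 hgd.eq⟩⟩, rfl⟩
  have hu1 : ∀ g ∈ G₀, Commute g d → g * t * g⁻¹ ≠ u * v := by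
    intro g hg hgd e
    obtain ⟨gY, rfl⟩ := hmemY g hg hgd
    exact member_ne_mul hG.1 hn huD hvD hneY.2.2 cuv (hG.2.1 gY _ htD)
      (Subtype.ext (by simp [htY, huY, hvY, e]))
  have hpair : ∀ g ∈ G₀, Commute g d → g * u * g⁻¹ ≠ t * v := by
    intro g hg hgd e
    obtain ⟨gY, rfl⟩ := hmemY g hg hgd
    exact member_ne_mul hG.1 hn htD hvD hneY.2.1 ctv (hG.2.1 gY _ huD)
      (Subtype.ext (by simp [htY, huY, hvY, e]))
  have hfacts2 : IsFact D 2 (uY * vY) [uY, vY] := ⟨by simp [hneY.2.2], rfl, by simp [huD, hvD],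
    by simp [cuv, cuv.symm, Commute.refl], by simp⟩
  have hfacts3 : IsFact D 3 (tY * uY * vY) [tY, uY, vY] := ⟨by simp [hneY.1, hneY.2.1, hneY.2.2], rfl,
    by simp [htD, huD, hvD], by simp [ctu, ctu.symm, ctv, ctv.symm, cuv, cuv.symm, Commute.refl],
    by simp [mul_assoc]⟩
  -- conjugation of `d` by the even centralizer
  have hconjY : ∀ (k : ↥(G₀ ⊓ Subgroup.centralizer ({d} : Set X))) (a : X),
      (k : X) * (d * a) * (k : X)⁻¹ = d * ((k : X) * a * (k : X)⁻¹) := fun k a => by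
    have hk : Commute (k : X) d :=
      Subgroup.mem_centralizer_singleton_iff.1 (Subgroup.mem_inf.1 k.2).2
    rw [← mul_assoc (k : X) d a, hk.eq]; group
  -- `d * z` is no conjugate of `d`
  have hdz : ¬ IsConj d (d * z) := by
    intro h
    obtain ⟨g₀, hg₀⟩ := isConj_iff.1 h
    obtain ⟨g, hgG, hgd⟩ : ∃ g ∈ G₀, g * d * g⁻¹ = d * z := by
      by_cases hh : g₀ ∈ G₀
      · exact ⟨g₀, hh, hg₀⟩
      · refine ⟨g₀ * d, (Subgroup.mul_mem_iff_of_index_two C.idx).2 (iff_of_false hh C.d_out), ?_⟩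
        rw [← hg₀]; group
    have hnG := C.normal_G₀
    obtain ⟨z', hz'⟩ : ∃ z', g⁻¹ * z * g = z' := ⟨_, rfl⟩
    have hz'G : z' ∈ G₀ := hz' ▸ by simpa using hnG.conj_mem z C.z_mem g⁻¹
    have hz'd : Commute z' d := by
      have hc : z * (g * d * g⁻¹) = g * d * g⁻¹ * z := by
        rw [hgd]; exact (C.d_z.symm.mul_right (Commute.refl z)).eq
      show z' * d = d * z'
      rw [← hz']
      calc g⁻¹ * z * g * d = g⁻¹ * (z * (g * d * g⁻¹)) * g := by group
        _ = g⁻¹ * (g * d * g⁻¹ * z) * g := by rw [hc]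
        _ = _ := by group
    obtain ⟨zY, hzY⟩ := hmemY z' hz'G hz'd
    have hord : orderOf zY = 2 := by
      rw [← Subgroup.orderOf_coe, hzY, ← hz']
      simpa using (orderOf_injective (MulAut.conj g⁻¹).toMonoidHom (MulAut.conj g⁻¹).injective z).trans C.z_order
    obtain ⟨m, h1, hm3, l, hl⟩ := m23_involution_fact hG hp h23 hord
    have hback : ∀ (k : ↥(G₀ ⊓ Subgroup.centralizer ({d} : Set X))) (a : X),
        (k : X) * a * (k : X)⁻¹ = z' → g * k * a * (g * k)⁻¹ = z := fun k a e => by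
      rw [show g * k * a * (g * (k : X))⁻¹ = g * (k * a * (k : X)⁻¹) * g⁻¹ by group, e, ← hz']; group
    interval_cases m
    · match l, hl with
      | [a], ⟨_, _, hm, _, hpr⟩ =>
        have hzD : zY ∈ D := by rw [← hpr]; simpa using hm a (by simp)
        obtain ⟨k, hk⟩ := hs tY htD zY hzD
        refine C.not_conj (g * k) (mul_mem hgG (Subgroup.mem_inf.1 k.2).1) (hback k t ?_)
        rw [← hzY, ← hk]; simp [htY]
    · obtain ⟨k, hk⟩ := m23_fact_conj hG hp h23 (by norm_num) (by norm_num) hfacts2 hl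
      obtain ⟨q, hq, hqt⟩ := C.t_z
      refine C.not_conj (g * k * q)
        (mul_mem (mul_mem hgG (Subgroup.mem_inf.1 k.2).1) (C.mem_G₀_of_Q hq)) ?_
      rw [show g * (k : X) * q * t * (g * k * q)⁻¹ = g * k * (q * t * q⁻¹) * (g * (k : X))⁻¹ by group,
        hqt, C.t_mul_z]
      refine hback k _ ?_
      rw [← hzY, ← hk]; simp [huY, hvY]
    · obtain ⟨k, hk⟩ := m23_fact_conj hG hp h23 (by norm_num) (by norm_num) hfacts3 hl
      have hk' : (k : X) * z * (k : X)⁻¹ = z' := by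
        rw [← hzY, ← hk, ← C.prod]; simp [htY, huY, hvY]
      refine C.no_dz hu1 hpair (g := g * k) (mul_mem hgG (Subgroup.mem_inf.1 k.2).1)
        (mul_inv_eq_iff_eq_mul.1 (hback k z hk')) ?_
      rw [show g * (k : X) * d * (g * k)⁻¹ = g * (k * d * (k : X)⁻¹) * g⁻¹ by group,
        mul_inv_eq_iff_eq_mul.2 (Subgroup.mem_centralizer_singleton_iff.1 (Subgroup.mem_inf.1 k.2).2)]
      exact hgd
  have hdd : IsConj d (d * t) := by
    obtain ⟨q, -, hqd⟩ := C.Q_d t (Or.inl rfl)
    exact isConj_iff.2 ⟨q, hqd⟩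
  have hduv : ¬ IsConj d (d * (u * v)) := by
    intro h
    refine hdz ?_
    obtain ⟨q, hq, hqd⟩ := C.Q_d t (Or.inl rfl)
    have hqz : q * z * q⁻¹ = z := by
      rw [Subgroup.mem_centralizer_singleton_iff.1
        (Subgroup.mem_inf.1 (C.Q_le hq)).2, mul_inv_cancel_right]
    refine h.trans (isConj_iff.2 ⟨q, ?_⟩).symm
    rw [← C.t_mul_z, ← conj_mul, hqd, hqz, mul_assoc]
  -- the recognition
  obtain ⟨e, he⟩ := M23Model.m23_iso_fi23 hG hp h23
  rw [gen_zero_class] at he
  have hcls : ∀ y, e y ∈ CfsgLib.Fi23Type67.D23 ↔ y ∈ D := fun y => by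
    rw [← he]; exact e.injective.mem_set_image
  refine ⟨{
    idx := C.idx, d_sq := C.d_sq, d_out := C.d_out, z_mem := C.z_mem, z_order := C.z_order
    e := e, tY := tY, uY := uY, vY := vY, tY_coe := htY, uY_coe := huY, vY_coe := hvY
    tY_cls := (hcls _).2 htD, uY_cls := (hcls _).2 huD, vY_cls := (hcls _).2 hvD
    tu := C.tu, uv := C.uv, tv := C.tv, prod := C.prod, not_conj := C.not_conj
    nd := ?_, ndc := ?_
    cent_t := C.cent_t, swap := C.swap, noswap := C.noswap
    Q := C.Q, Q_le := C.Q_le, Q_normal := C.Q_normal, Q_gen := C.Q_gen, Q_comm := C.Q_comm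
    s := C.s, s_mem := C.s_mem, s_d := C.s_d
    s_t := C.s_t, s_u := C.s_u, s_v := C.s_v, t_Q := C.t_Q }⟩
  · intro x hx hxd hne
    have hxo : x ∉ G₀ := fun h => C.d_out (by
      obtain ⟨g, rfl⟩ := isConj_iff.1 hx
      simpa [mul_assoc] using C.normal_G₀.conj_mem _ h g⁻¹)
    have hxsq : x * x = 1 := by
      obtain ⟨g, rfl⟩ := isConj_iff.1 hx
      rw [conj_mul, C.d_sq, mul_one, mul_inv_cancel]
    obtain ⟨y, hy⟩ := hmemY (d * x) ((Subgroup.mul_mem_iff_of_index_two C.idx).2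
      (iff_of_false C.d_out hxo)) ((Commute.refl d).mul_left hxd)
    have hxy : x = d * (y : X) := by rw [hy, ← mul_assoc, C.d_sq, one_mul]
    have hy2 : (y : X) * y = 1 := by
      rw [hy, show d * x * (d * x) = d * (x * d) * x by group, hxd.eq, ← mul_assoc, C.d_sq, one_mul, hxsq]
    have hy1 : y ≠ 1 := fun h => hne (by rw [hxy, h, OneMemClass.coe_one, mul_one])
    have hord : orderOf y = 2 :=
      orderOf_eq_prime (by rw [pow_two]; exact Subtype.ext hy2) hy1
    obtain ⟨m, h1, hm3, l, hl⟩ := m23_involution_fact hG hp h23 hord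
    interval_cases m
    · match l, hl with
      | [a], ⟨_, _, hm, _, hpr⟩ =>
        exact ⟨y, (hcls y).2 (by rw [← hpr]; simpa using hm a (by simp)), hxy⟩
    · obtain ⟨k, hk⟩ := m23_fact_conj hG hp h23 (by norm_num) (by norm_num) hfacts2 hl
      refine absurd (hx.trans (isConj_iff.2 ⟨k, ?_⟩ : IsConj (d * (u * v)) x).symm) hduv
      rw [hxy, hconjY, ← hk]; simp [huY, hvY]
    · obtain ⟨k, hk⟩ := m23_fact_conj hG hp h23 (by norm_num) (by norm_num) hfacts3 hl
      refine absurd (hx.trans (isConj_iff.2 ⟨k, ?_⟩ : IsConj (d * z) x).symm) hdz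
      rw [hxy, hconjY, ← hk, ← C.prod]; simp [htY, huY, hvY]
  · intro y hy
    obtain ⟨k, hk⟩ := hs tY htD y ((hcls y).1 hy)
    refine hdd.trans (isConj_iff.2 ⟨k, ?_⟩)
    rw [hconjY, ← hk]; simp [htY]

end CfsgLib.AutLf48
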