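import Cfsg.Agent.AutLf48.Kick
import Cfsg.Agent.ThreeTransp.M24Inv58

/-!
A subgroup of the configuration that is the image of Fi24 and contains the centralizer of `d` is
the whole group.
-/

set_option autoImplicit false
set_option maxRecDepth 8000

namespace CfsgLib.AutLf48

open Cfsg CfsgLib.ThreeTransp CfsgLib.CosetEnum
open CfsgLib.Fi23Recog54 (Nd mem_cent54)
open CfsgLib.Fi23Type67 (D23)

universe w

variable {X : Type w} [Group X] {G₀ : Subgroup X} {z d t u v : X}

/-- Two involutions are conjugate or commute with a third one in the group they generate. -/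
theorem conj_or_third [Finite X] {x i : X} (hx : x * x = 1) (hi : i * i = 1) :
    IsConj x i ∨ ∃ c ∈ Subgroup.zpowers (x * i), c * c = 1 ∧ c ≠ 1 ∧ Commute c x ∧
      Commute c i := by
  obtain ⟨r, hr⟩ : ∃ r, r = x * i := ⟨_, rfl⟩
  have hxi : x⁻¹ = x := inv_eq_of_mul_eq_one_right hx
  have hii : i⁻¹ = i := inv_eq_of_mul_eq_one_right hi
  have hir : i * r * i⁻¹ = r⁻¹ := by
    rw [hr, mul_inv_rev, hxi, mul_assoc i (x * i) i⁻¹, mul_assoc x i i⁻¹, mul_inv_cancel, mul_one,
      hii]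
  have hpow : ∀ k : ℕ, i * r ^ k * i⁻¹ = (r ^ k)⁻¹ := fun k => by
    rw [← conj_pow, hir, inv_pow]
  have hxr : x = r * i := by rw [hr, mul_assoc, hi, mul_one]
  have hone := pow_orderOf_eq_one r
  obtain ⟨m, hm | hm⟩ := Nat.even_or_odd' (orderOf r)
  · refine Or.inr ⟨r ^ m, hr ▸ pow_mem (Subgroup.mem_zpowers r) m, ?_, ?_, ?_, ?_⟩
    · rw [← pow_add, ← two_mul, ← hm, hone]
    · refine pow_ne_one_of_lt_orderOf ?_ ?_
      · have := orderOf_pos r; omega
      · have := orderOf_pos r; omega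
    all_goals
      have hc : (r ^ m)⁻¹ = r ^ m := inv_eq_of_mul_eq_one_right (by
        rw [← pow_add, ← two_mul, ← hm, hone])
      have hci : Commute (r ^ m) i := (mul_inv_eq_iff_eq_mul.1 ((hpow m).trans hc)).symm
    · rw [hxr]
      exact ((Commute.refl r).pow_left m).mul_right hci
    · exact hci
  · refine Or.inl (IsConj.symm (isConj_iff.2 ⟨(r ^ m)⁻¹, ?_⟩))
    have h1 : r ^ m * r ^ m * r = 1 := by rw [← pow_add, ← pow_succ, ← two_mul, ← hm, hone]
    have h2 : (r ^ m)⁻¹ * (r ^ m)⁻¹ = r := by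
      rw [← mul_inv_rev, inv_eq_of_mul_eq_one_right h1]
    rw [inv_inv, hxr]
    calc (r ^ m)⁻¹ * i * r ^ m = (r ^ m)⁻¹ * (i * r ^ m * i⁻¹) * i := by group
      _ = r * i := by rw [hpow m, h2]

/-- The injective image of Fi24 that contains the centralizer of `d` is everything. -/
theorem Cfg.surjective [Finite X] (C : Cfg G₀ z d t u v) (φ : Spor.Fi24 →* X)
    (hinj : Function.Injective φ) (hd : φ (Fi24.g12 10) = d)
    (hC : Subgroup.centralizer ({d} : Set X) ≤ φ.range) : Function.Surjective φ := by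
  classical
  have h := Fi24.checksOK
  have := Fi24.finite_Fi24 h
  have := Fi23.finite_fi23
  have hG : IsThreeTranspositionGroup Fi24.transClass := ttg_of_class (Fi24.isThreeTransposition h)
  have hp := CfsgLib.Fi24Type67.primitive24 h
  have ht24 := CfsgLib.Fi24Type67.type24 h
  have hcd : ∀ g, Commute g d → g ∈ φ.range := fun g hg => hC (mem_cent54.2 hg)
  have hcy : ∀ y : ↥(G₀ ⊓ Subgroup.centralizer ({d} : Set X)), Commute (y : X) d :=
    fun y => mem_cent54.1 y.2.2
  -- every member commuting with `d` is in the image of the class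
  have himg : ∀ y : ↥(G₀ ⊓ Subgroup.centralizer ({d} : Set X)), C.e y ∈ D23 →
      ∃ a ∈ Fi24.transClass, φ a = d * y := by
    intro y hy
    have key : ∀ m : ↥D23, ∃ q : ↥D23, ∃ a ∈ Nd (Fi24.g12 10), loc24.φ a = m ∧
        φ a = d * (C.e.symm q : X) := by
      intro m
      obtain ⟨a, ha, ham⟩ := loc24.φ_onto m.2
      obtain ⟨y', hy', e⟩ := C.nd (φ a) (hd ▸ φ.map_isConj ha.1) (hd ▸ (ha.2.2.map φ).symm)
        (fun e => ha.2.1 (hinj (e.trans hd.symm)))
      exact ⟨⟨C.e y', hy'⟩, a, ha, ham, by rw [C.e.symm_apply_apply]; exact e⟩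
    choose f a ha ham hfa using key
    have hf : Function.Injective f := fun m m' e => by
      have e' : φ (a m) = φ (a m') := by rw [hfa, hfa, e]
      exact Subtype.ext ((ham m).symm.trans ((congrArg loc24.φ (hinj e')).trans (ham m')))
    obtain ⟨m, hm⟩ := Finite.surjective_of_injective hf ⟨C.e y, hy⟩
    refine ⟨a m, (ha m).1, ?_⟩
    rw [hfa, hm, C.e.symm_apply_apply]
  haveI := Subgroup.normal_of_index_eq_two C.idx
  have hpar : ∀ a ∈ Fi24.transClass, φ a ∉ G₀ := fun a ha hmem => by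
    obtain ⟨p, rfl⟩ := Fi24.mem_transClass.1 ha
    rw [map_mul, map_mul, map_inv, hd] at hmem
    have := (inferInstance : G₀.Normal).conj_mem _ hmem (φ p)⁻¹
    rw [inv_inv, show (φ p)⁻¹ * (φ p * d * (φ p)⁻¹) * φ p = d by group] at this
    exact C.d_out this
  have heven : ∀ l : List Spor.Fi24, (∀ a ∈ l, a ∈ Fi24.transClass) →
      (φ l.prod ∈ G₀ ↔ Even l.length) := by
    intro l
    induction l with
    | nil => intro; simp
    | cons a l ih =>
      intro hl
      rw [List.prod_cons, map_mul, Subgroup.mul_mem_iff_of_index_two C.idx, List.length_cons,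
        Nat.even_add_one, ih fun b hb => hl b (List.mem_cons_of_mem _ hb)]
      simp [hpar a (hl a List.mem_cons_self)]
  -- the three members
  have ht0 : t ∈ G₀ := C.tY_coe ▸ C.tY.2.1
  have htd : Commute t d := C.tY_coe ▸ hcy C.tY
  have hud : Commute u d := C.uY_coe ▸ hcy C.uY
  have hvd : Commute v d := C.vY_coe ▸ hcy C.vY
  obtain ⟨a, ha, hat⟩ := himg C.tY C.tY_cls
  obtain ⟨b, hb, hbu⟩ := himg C.uY C.uY_cls
  obtain ⟨c, hc, hcv⟩ := himg C.vY C.vY_cls
  rw [C.tY_coe] at hat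
  rw [C.uY_coe] at hbu
  rw [C.vY_coe] at hcv
  have hl : Fi24.g12 10 ∈ Fi24.transClass := mem_conjugatesOf_self
  have hne1 : ∀ y : ↥(G₀ ⊓ Subgroup.centralizer ({d} : Set X)), C.e y ∈ D23 → d ≠ d * (y : X) :=
    fun y hy e => tt_ne_one ttg23.1 hy (by
      rw [show y = 1 from Subtype.ext (mul_eq_left.1 e.symm), map_one])
  have hcomm : ∀ {p q : Spor.Fi24}, Commute (φ p) (φ q) → Commute p q := fun {p q} e =>
    hinj (by rw [map_mul, map_mul, e.eq])
  have cdy : ∀ {y y' : X}, Commute y d → Commute y' d → Commute y y' →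
      Commute (d * y) (d * y') := fun {y y'} h1 h2 h3 =>
    ((Commute.refl d).mul_right h2.symm).mul_left (h1.mul_right h3)
  have pdy : ∀ {y y' : X}, Commute y d → d * y * (d * y') = y * y' := fun {y y'} h1 => by
    rw [← h1.eq, mul_assoc, ← mul_assoc d d y', C.d_sq, one_mul]
  have hd1 : ∀ {y : X}, Commute y d → Commute d (d * y) := fun {y} h1 =>
    (Commute.refl d).mul_right h1.symm
  have fact2 : IsFact Fi24.transClass 2 (Fi24.g12 10 * a) [Fi24.g12 10, a] := by
    refine ⟨?_, rfl, by simp [hl, ha], ?_, by simp⟩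
    · have : Fi24.g12 10 ≠ a := fun e => hne1 C.tY C.tY_cls (by rw [C.tY_coe, ← hat, ← e, hd])
      simpa using this
    · have : Commute (Fi24.g12 10) a := hcomm (by rw [hd, hat]; exact hd1 htd)
      intro p hp q hq
      simp only [List.mem_cons, List.not_mem_nil, or_false] at hp hq
      rcases hp with rfl | rfl <;> rcases hq with rfl | rfl <;>
        first | exact Commute.refl _ | assumption | exact Commute.symm (by assumption)
  have ht2 : φ (Fi24.g12 10 * a) = t := by
    rw [map_mul, hd, hat, ← mul_assoc, C.d_sq, one_mul]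
  have fact4 : IsFact Fi24.transClass 4 (Fi24.g12 10 * a * (b * c)) [Fi24.g12 10, a, b, c] := by
    refine ⟨?_, rfl, by simp [hl, ha, hb, hc], ?_, by simp [mul_assoc]⟩
    · have n1 : Fi24.g12 10 ≠ a := fun e =>
        hne1 C.tY C.tY_cls (by rw [C.tY_coe, ← hat, ← e, hd])
      have n2 : Fi24.g12 10 ≠ b := fun e =>
        hne1 C.uY C.uY_cls (by rw [C.uY_coe, ← hbu, ← e, hd])
      have n3 : Fi24.g12 10 ≠ c := fun e =>
        hne1 C.vY C.vY_cls (by rw [C.vY_coe, ← hcv, ← e, hd])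
      have n4 : a ≠ b := fun e => C.tu.1 (mul_left_cancel (by rw [← hat, e, hbu]))
      have n5 : a ≠ c := fun e => C.tv.1 (mul_left_cancel (by rw [← hat, e, hcv]))
      have n6 : b ≠ c := fun e => C.uv.1 (mul_left_cancel (by rw [← hbu, e, hcv]))
      simp [n1, n2, n3, n4, n5, n6]
    · have c1 : Commute (Fi24.g12 10) a := hcomm (by rw [hd, hat]; exact hd1 htd)
      have c2 : Commute (Fi24.g12 10) b := hcomm (by rw [hd, hbu]; exact hd1 hud)
      have c3 : Commute (Fi24.g12 10) c := hcomm (by rw [hd, hcv]; exact hd1 hvd)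
      have c4 : Commute a b := hcomm (by rw [hat, hbu]; exact cdy htd hud C.tu.2)
      have c5 : Commute a c := hcomm (by rw [hat, hcv]; exact cdy htd hvd C.tv.2)
      have c6 : Commute b c := hcomm (by rw [hbu, hcv]; exact cdy hud hvd C.uv.2)
      intro p hp q hq
      simp only [List.mem_cons, List.not_mem_nil, or_false] at hp hq
      rcases hp with rfl | rfl | rfl | rfl <;> rcases hq with rfl | rfl | rfl | rfl <;>
        first | exact Commute.refl _ | assumption | exact Commute.symm (by assumption)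
  have hz4 : φ (Fi24.g12 10 * a * (b * c)) = z := by
    rw [map_mul, ht2, map_mul, hbu, hcv, pdy hud, ← mul_assoc, C.prod]
  have hz1 : z ≠ 1 := fun e => by
    have := C.z_order
    rw [e, orderOf_one] at this
    norm_num at this
  have hz2 : z * z = 1 := by rw [← pow_two, ← C.z_order, pow_orderOf_eq_one]
  have ht1 : t ≠ 1 := fun e => hne1 C.tY C.tY_cls (by rw [C.tY_coe, e, mul_one])
  have hsq : ∀ {g : Spor.Fi24}, g ∈ Fi24.transClass → φ g * φ g = 1 := fun {g} hg => by
    rw [← map_mul, tt_mul_self hG.1 hg, map_one]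
  have htsq : t * t = 1 := by
    have e := hsq ha
    rwa [hat, pdy htd] at e
  -- `t` is not conjugate to `z`
  have htz : ∀ g : X, g * t * g⁻¹ ≠ z := by
    intro g e
    by_cases hg : g ∈ G₀
    · exact C.not_conj g hg e
    have hzd : Commute z d := C.prod ▸ ((htd.mul_left hud).mul_left hvd)
    refine C.not_conj (d * g)
      ((Subgroup.mul_mem_iff_of_index_two C.idx).2 (iff_of_false C.d_out hg)) ?_
    rw [show d * g * t * (d * g)⁻¹ = d * (g * t * g⁻¹) * d⁻¹ by group, e, ← hzd.eq,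
      mul_inv_cancel_right]
  -- the involutions of the even part of the image
  have hcls : ∀ x ∈ φ.range, x ∈ G₀ → x * x = 1 → x ≠ 1 →
      ∃ p ∈ φ.range, p * x * p⁻¹ = t ∨ p * x * p⁻¹ = z := by
    rintro x ⟨x', rfl⟩ hx0 hx2 hx1
    have ho : orderOf x' = 2 := orderOf_eq_prime
      (hinj (by rw [pow_two, map_mul, hx2, map_one])) fun e => hx1 (by rw [e, map_one])
    obtain ⟨m, h1, h4, l, hfl⟩ := m24_involution_fact58 hG hp ht24 ho
    have hev : Even m := by
      rw [← hfl.2.1, ← heven l hfl.2.2.1, hfl.2.2.2.2]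
      exact hx0
    obtain rfl | rfl : m = 2 ∨ m = 4 := by
      obtain ⟨k, hk⟩ := hev
      omega
    · obtain ⟨g, hg⟩ := m24_fact_conj58 hG hp ht24 (by norm_num) (by norm_num) hfl fact2
      exact ⟨φ g, ⟨g, rfl⟩, Or.inl (by rw [← map_inv, ← map_mul, ← map_mul, hg, ht2])⟩
    · obtain ⟨g, hg⟩ := m24_fact_conj58 hG hp ht24 (by norm_num) le_rfl hfl fact4
      exact ⟨φ g, ⟨g, rfl⟩, Or.inr (by rw [← map_inv, ← map_mul, ← map_mul, hg, hz4])⟩
  -- the centralizers
  have hCt : ∀ g, Commute g t → g ∈ φ.range := by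
    intro g hg
    obtain ⟨p, hp'⟩ := Fi24.mem_transClass.1 ha
    rcases C.cent_t g hg with e | e
    · exact hcd g (mul_inv_eq_iff_eq_mul.1 e)
    · have hk : φ p * d * (φ p)⁻¹ = d * t := by
        rw [← hd, ← map_inv, ← map_mul, ← map_mul, hp', hat, hd]
      have h2 : Commute ((φ p)⁻¹ * g) d := mul_inv_eq_iff_eq_mul.1 (by
        rw [show (φ p)⁻¹ * g * d * ((φ p)⁻¹ * g)⁻¹ = (φ p)⁻¹ * (g * d * g⁻¹) * φ p by group,
          e, ← hk]
        group)
      have h3 := φ.range.mul_mem ⟨p, rfl⟩ (hcd _ h2)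
      rwa [mul_inv_cancel_left] at h3
  have hconj : ∀ {p g i : X}, p ∈ φ.range → (∀ g, Commute g i → g ∈ φ.range) →
      Commute g (p⁻¹ * i * p) → g ∈ φ.range := by
    intro p g i hpr hi hg
    have h1 : Commute (p * g * p⁻¹) i := by
      have := (commute_conj_iff' (g := p)).2 hg
      rwa [show p * (p⁻¹ * i * p) * p⁻¹ = i by group] at this
    have h2 := φ.range.mul_mem (φ.range.mul_mem (φ.range.inv_mem hpr) (hi _ h1)) hpr
    rwa [show p⁻¹ * (p * g * p⁻¹) * p = g by group] at h2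
  have hsr : C.s ∈ φ.range := hcd _ C.s_d
  have hCu : ∀ g, Commute g u → g ∈ φ.range := fun g hg =>
    hconj (φ.range.inv_mem hsr) hCt (by rwa [inv_inv, C.s_t])
  have hQ : ∀ q ∈ C.Q, q ∈ φ.range := fun q hq => by
    obtain ⟨p, -, p', -, hp1, hp2, rfl⟩ := C.Q_gen q hq
    exact mul_mem (hCt _ hp1) (hCu _ hp2)
  have back : ∀ g : X, g * t * g⁻¹ ∈ φ.range → g * t * g⁻¹ ∈ G₀ → g ∈ φ.range := by
    intro g hr h0
    obtain ⟨p, hpr, e | e⟩ := hcls _ hr h0
      (by rw [conj_mul, htsq, mul_one, mul_inv_cancel]) (fun e => ht1 (conj_eq_one_iff.1 e))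
    · have h1 : Commute (p * g) t := mul_inv_eq_iff_eq_mul.1 (by
        refine Eq.trans ?_ e
        group)
      have h2 := φ.range.mul_mem (φ.range.inv_mem hpr) (hCt _ h1)
      rwa [inv_mul_cancel_left] at h2
    · exact absurd (by rw [← e]; group : p * g * t * (p * g)⁻¹ = z) (htz _)
  have hCz : ∀ g, Commute g z → g ∈ φ.range := by
    intro g hg
    have hq := (Subgroup.mem_normalizer_iff.1 (C.Q_normal (mem_cent54.2 hg)) t).1 C.t_Q
    exact back g (hQ _ hq) (C.Q_le hq).1
  have hinv : ∀ x ∈ φ.range, x ∈ G₀ → x * x = 1 → x ≠ 1 → ∀ g, Commute g x → g ∈ φ.range := by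
    intro x hxr hx0 hx2 hx1 g hg
    obtain ⟨p, hpr, e | e⟩ := hcls x hxr hx0 hx2 hx1
    · exact hconj hpr hCt (by rwa [← e, show p⁻¹ * (p * x * p⁻¹) * p = x by group])
    · exact hconj hpr hCz (by rwa [← e, show p⁻¹ * (p * x * p⁻¹) * p = x by group])
  have hall : ∀ x ∈ G₀, x * x = 1 → x ∈ φ.range := by
    intro x hx0 hx2
    have step : ∀ i ∈ G₀, i * i = 1 → (∀ g, Commute g i → g ∈ φ.range) →
        x ∈ φ.range ∨ IsConj x i := by
      intro i hi0 hi2 hi
      rcases conj_or_third hx2 hi2 with e | ⟨k, hk, hk2, hk1, hkx, hki⟩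
      · exact Or.inr e
      · exact Or.inl (hinv k (hi k hki) (Subgroup.zpowers_le.2 (G₀.mul_mem hx0 hi0) hk) hk2 hk1
          x hkx.symm)
    rcases step t ht0 htsq hCt with e | e
    · exact e
    rcases step z C.z_mem hz2 hCz with e' | e'
    · exact e'
    obtain ⟨g, hg⟩ := isConj_iff.1 (e.symm.trans e')
    exact absurd hg (htz g)
  have hG0 : ∀ g ∈ G₀, g ∈ φ.range := fun g hg => by
    have h0 : g * t * g⁻¹ ∈ G₀ := G₀.mul_mem (G₀.mul_mem hg ht0) (G₀.inv_mem hg)
    exact back g (hall _ h0 (by rw [conj_mul, htsq, mul_one, mul_inv_cancel])) h0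
  intro g
  by_cases hg : g ∈ G₀
  · exact hG0 g hg
  · have h1 := hG0 (d * g) ((Subgroup.mul_mem_iff_of_index_two C.idx).2 (iff_of_false C.d_out hg))
    have h2 := φ.range.mul_mem (hcd d (Commute.refl d)) h1
    rw [← mul_assoc, C.d_sq, one_mul] at h2
    exact h2

end CfsgLib.AutLf48
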