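import Cfsg.Agent.Fi24Type67.Main
import Cfsg.Agent.CosetEnum.Fi24.Checked
import Cfsg.Agent.ThreeTransp.M24Facts

/-!
A group isomorphic to the presented Fi24 has a class of 3-transpositions of type M(24).
-/

set_option autoImplicit false

namespace CfsgLib.AutLf48

open Cfsg CfsgLib.ThreeTransp

universe u v

/-- The type M(24) passes along an isomorphism. -/
theorem typeM24_map48 {A : Type u} {B : Type v} [Group A] [Group B] (f : A ≃* B) {D : Set A}
    {D' : Set B} (h : f '' D = D') (ht : IsOfTypeM24 A D) : IsOfTypeM24 B D' := by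
  obtain ⟨hZ, d, hd, c, hc, hdc, h23, N, hN, ⟨iN⟩, ⟨iQ⟩⟩ := ht
  refine ⟨?_, f d, h ▸ ⟨d, hd, rfl⟩, f c, h ▸ ⟨c, hc, rfl⟩, ?_, ?_, ?_⟩
  · rw [eq_bot_iff]
    intro z hz
    rw [Subgroup.mem_center_iff] at hz
    have : f.symm z ∈ Subgroup.center A := Subgroup.mem_center_iff.2 fun y => f.injective (by
      rw [map_mul, map_mul, f.apply_symm_apply]; exact hz (f y))
    rw [hZ, Subgroup.mem_bot] at this
    rw [Subgroup.mem_bot, ← f.apply_symm_apply z, this, map_one]
  · intro hh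
    refine hdc ?_
    have := hh.map f.symm
    simpa using this
  · obtain ⟨e, he⟩ := nbrBar_equiv f h d
    exact typeM23_map e he h23
  · obtain ⟨e, -⟩ := closureCongr f (S := nbr D d ∩ nbr D c) (T := nbr D' (f d) ∩ nbr D' (f c))
      (by rw [Set.image_inter f.injective, image_nbr f h, image_nbr f h])
    obtain ⟨q, -⟩ := quotCenterCongr e
    have hn := hN.map q.toMonoidHom q.surjective
    exact ⟨N.map q.toMonoidHom, hn,
      ⟨(Subgroup.equivMapOfInjective N q.toMonoidHom q.injective).symm.trans iN⟩,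
      ⟨(QuotientGroup.congr N (N.map q.toMonoidHom) q rfl).symm.trans iQ⟩⟩

/-- A group isomorphic to the presented Fi24 is generated by a class of 3-transpositions with
respect to which it is of type M(24). -/
theorem exists_class24 {X : Type u} [Group X] (ψ : Spor.Fi24 ≃* X) :
    ∃ E : Set X, IsThreeTranspositionClass E ∧ IsOfTypeM24 X E := by
  have h := CfsgLib.CosetEnum.Fi24.checksOK
  obtain ⟨⟨h2, h3⟩, ⟨d, hd, hcls⟩, hgen⟩ := CfsgLib.CosetEnum.Fi24.isThreeTransposition h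
  refine ⟨ψ '' CfsgLib.CosetEnum.Fi24.transClass, ⟨⟨?_, ?_⟩, ⟨ψ d, ⟨d, hd, rfl⟩, ?_⟩, ?_⟩,
    typeM24_map48 ψ rfl (CfsgLib.Fi24Type67.type24 h)⟩
  · rintro _ ⟨x, hx, rfl⟩
    rw [← h2 x hx]
    exact orderOf_injective ψ.toMonoidHom ψ.injective x
  · rintro _ ⟨x, hx, rfl⟩ _ ⟨y, hy, rfl⟩
    rcases h3 x hx y hy with e | e
    · left; rw [← map_mul, ← map_pow, e, map_one]
    · right; rw [← map_mul, ← map_pow, e, map_one]
  · rw [hcls]
    ext y
    constructor
    · rintro ⟨x, hx, rfl⟩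
      obtain ⟨g, rfl⟩ := isConj_iff.1 hx
      exact isConj_iff.2 ⟨ψ g, by rw [map_mul, map_mul, map_inv]⟩
    · intro hy
      obtain ⟨g, rfl⟩ := isConj_iff.1 hy
      exact ⟨ψ.symm g * d * (ψ.symm g)⁻¹, isConj_iff.2 ⟨_, rfl⟩,
        by rw [map_mul, map_mul, map_inv, ψ.apply_symm_apply]⟩
  · rw [show (ψ '' CfsgLib.CosetEnum.Fi24.transClass) =
        ψ.toMonoidHom '' CfsgLib.CosetEnum.Fi24.transClass from rfl, ← MonoidHom.map_closure, hgen]
    exact Subgroup.map_top_of_surjective _ ψ.surjective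

end CfsgLib.AutLf48
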